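import Mathlib
import Cfsg.Agent.H20.Generation
import Cfsg.Agent.H20.Abelian
import Cfsg.Agent.H21.FrobeniusStructure

set_option autoImplicit false

/-! Tools for the nonsolvability criterion by four primes, pairwise joined, no triple. -/

namespace Cfsg.Agent.H84.FourPrimes

variable {G : Type*} [Group G] [Finite G]

/-- The consequences of the hypothesis on element orders used in the argument. -/
structure Setting (G : Type*) [Group G] (σ : Set ℕ) : Prop where
  prime : ∀ p ∈ σ, p.Prime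
  noTriple : ∀ a b c : G, orderOf a ∈ σ → orderOf b ∈ σ → orderOf c ∈ σ → orderOf a ≠ orderOf b →
    orderOf b ≠ orderOf c → orderOf a ≠ orderOf c → Commute a b → Commute b c → Commute a c → False
  miss : ∀ (g : G) (i j k : ℕ), orderOf g ∈ σ → i ∈ σ → j ∈ σ → k ∈ σ → i ≠ orderOf g → j ≠ orderOf g →
    k ≠ orderOf g → i ≠ j → j ≠ k → i ≠ k →
    i ∣ Nat.card (Subgroup.centralizer ({g} : Set G)) → j ∣ Nat.card (Subgroup.centralizer ({g} : Set G)) →
    k ∣ Nat.card (Subgroup.centralizer ({g} : Set G)) → False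

/-- An elementary abelian group of order `i ^ 2`. -/
structure IsE (i : ℕ) (E : Subgroup G) : Prop where
  comm : ∀ a ∈ E, ∀ b ∈ E, a * b = b * a
  pow_eq : ∀ a ∈ E, a ^ i = 1
  card : Nat.card E = i ^ 2

/-- `X` has an elementary abelian subgroup of order `i ^ 2`. -/
def HasE (i : ℕ) (X : Subgroup G) : Prop := ∃ E : Subgroup G, IsE i E ∧ E ≤ X

/-- Two elements of order `i` of `X` generate the same subgroup. -/
def Uniq (i : ℕ) (X : Subgroup G) : Prop :=
  ∀ a ∈ X, ∀ b ∈ X, orderOf a = i → orderOf b = i → b ∈ Subgroup.zpowers a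

theorem exists_orderOf {i : ℕ} [hi : Fact i.Prime] {X : Subgroup G} (hX : IsPGroup i X) (hne : X ≠ ⊥) :
    ∃ x ∈ X, orderOf x = i := by
  have hd : i ∣ Nat.card X := by
    rcases hX.card_eq_or_dvd with h | h
    · exact absurd (Subgroup.card_eq_one.mp h) hne
    · exact h
  obtain ⟨⟨x, hx⟩, ho⟩ := exists_prime_orderOf_dvd_card' i hd
  rw [Subgroup.orderOf_mk] at ho
  exact ⟨x, hx, ho⟩

omit [Finite G] in
theorem ne_one_of_orderOf {i : ℕ} (hi : i.Prime) {x : G} (h : orderOf x = i) : x ≠ 1 := fun e =>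
  hi.ne_one (by rw [← h, e, orderOf_one])

theorem isPGroup_zpowers {i : ℕ} [Fact i.Prime] {x : G} (h : orderOf x = i) :
    IsPGroup i (Subgroup.zpowers x) := IsPGroup.of_card (n := 1) (by rw [Nat.card_zpowers, h, pow_one])

theorem IsE.isMulCommutative {i : ℕ} {E : Subgroup G} (h : IsE i E) : IsMulCommutative E :=
  ⟨⟨fun a b => Subtype.ext (h.comm a a.2 b b.2)⟩⟩

theorem IsE.orderOf_eq {i : ℕ} [Fact i.Prime] {E : Subgroup G} (h : IsE i E) {x : G} (hx : x ∈ E)
    (hx1 : x ≠ 1) : orderOf x = i := orderOf_eq_prime (h.pow_eq x hx) hx1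

theorem IsE.isPGroup {i : ℕ} [Fact i.Prime] {E : Subgroup G} (h : IsE i E) : IsPGroup i E :=
  IsPGroup.of_card h.card

theorem IsE.exists_not_mem {i : ℕ} [hi : Fact i.Prime] {E : Subgroup G} (h : IsE i E) {x : G} (hx : x ∈ E) :
    ∃ y ∈ E, y ∉ Subgroup.zpowers x := by
  by_contra hcon
  push Not at hcon
  have h1 := Subgroup.card_le_of_le (show E ≤ Subgroup.zpowers x from hcon)
  rw [h.card, Nat.card_zpowers] at h1
  have h2 := Nat.le_of_dvd hi.out.pos (orderOf_dvd_of_pow_eq_one (h.pow_eq x hx))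
  nlinarith [hi.out.two_le]

theorem IsE.not_isCyclic {i : ℕ} [hi : Fact i.Prime] {E : Subgroup G} (h : IsE i E) : ¬ IsCyclic E := by
  intro hc
  obtain ⟨⟨x, hx⟩, hg⟩ := hc.exists_generator
  obtain ⟨y, hy, hyx⟩ := h.exists_not_mem hx
  obtain ⟨n, hn⟩ := Subgroup.mem_zpowers_iff.mp (hg ⟨y, hy⟩)
  exact hyx (Subgroup.mem_zpowers_iff.mpr ⟨n, congrArg Subtype.val hn⟩)

theorem zpowers_eq_of_mem {i : ℕ} [hi : Fact i.Prime] {x y : G} (hx : orderOf x = i) (hy : y ∈ Subgroup.zpowers x)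
    (hy1 : y ≠ 1) : Subgroup.zpowers y = Subgroup.zpowers x := by
  refine Subgroup.eq_of_le_of_card_ge (Subgroup.zpowers_le.mpr hy) ?_
  rw [Nat.card_zpowers, Nat.card_zpowers, hx]
  have hd : orderOf y ∣ i := by
    rw [← hx]
    exact Nat.card_zpowers x ▸ Subgroup.orderOf_dvd_natCard _ hy
  rcases (Nat.dvd_prime hi.out).mp hd with h | h
  · exact absurd (orderOf_eq_one_iff.mp h) hy1
  · omega

theorem IsE.eq_sup {i : ℕ} [hi : Fact i.Prime] {E : Subgroup G} (h : IsE i E) {x y : G} (hx : x ∈ E)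
    (hx1 : x ≠ 1) (hy : y ∈ E) (hyx : y ∉ Subgroup.zpowers x) :
    Subgroup.zpowers x ⊔ Subgroup.zpowers y = E := by
  set K := Subgroup.zpowers x ⊔ Subgroup.zpowers y
  have hKE : K ≤ E := sup_le (Subgroup.zpowers_le.mpr hx) (Subgroup.zpowers_le.mpr hy)
  obtain ⟨k, hk, hc⟩ := (Nat.dvd_prime_pow hi.out).mp (h.card ▸ Subgroup.card_dvd_of_le hKE)
  refine Subgroup.eq_of_le_of_card_ge hKE ?_
  rw [h.card, hc]
  apply Nat.pow_le_pow_right hi.out.pos
  by_contra hlt
  apply hyx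
  have : K = Subgroup.zpowers x := (Subgroup.eq_of_le_of_card_ge le_sup_left (by
    rw [hc, Nat.card_zpowers, h.orderOf_eq hx hx1]
    calc i ^ k ≤ i ^ 1 := Nat.pow_le_pow_right hi.out.pos (by omega)
      _ = i := pow_one i)).symm
  rw [← this]
  exact Subgroup.mem_sup_right (Subgroup.mem_zpowers y)

/-- An element commuting with two generators commutes with all of `E`. -/
theorem IsE.le_centralizer {i : ℕ} [Fact i.Prime] {E : Subgroup G} (h : IsE i E) {x y g : G} (hx : x ∈ E)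
    (hx1 : x ≠ 1) (hy : y ∈ E) (hyx : y ∉ Subgroup.zpowers x) (hgx : Commute g x) (hgy : Commute g y) :
    g ∈ Subgroup.centralizer (E : Set G) := by
  rw [← h.eq_sup hx hx1 hy hyx, ← Subgroup.zpowers_le, Subgroup.le_centralizer_iff,
    sup_le_iff, Subgroup.zpowers_le, Subgroup.zpowers_le, Subgroup.mem_centralizer_iff,
    Subgroup.mem_centralizer_iff]
  constructor <;>
  · intro u hu
    obtain ⟨n, rfl⟩ := Subgroup.mem_zpowers_iff.mp hu
    first | exact (hgx.zpow_left n).eq | exact (hgy.zpow_left n).eq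

theorem hasE_of_commute {i : ℕ} [hi : Fact i.Prime] {X : Subgroup G} {a b : G} (ha : a ∈ X) (hb : b ∈ X)
    (hao : orderOf a = i) (hbo : orderOf b = i) (hab : Commute a b) (hne : b ∉ Subgroup.zpowers a) :
    HasE i X := by
  set A := Subgroup.zpowers a
  set B := Subgroup.zpowers b
  have hcomm : ∀ u ∈ A, ∀ v ∈ B, Commute u v := by
    intro u hu v hv
    obtain ⟨m, rfl⟩ := Subgroup.mem_zpowers_iff.mp hu
    obtain ⟨n, rfl⟩ := Subgroup.mem_zpowers_iff.mp hv
    exact hab.zpow_zpow m n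
  let f : A × B →* G := MonoidHom.noncommCoprod A.subtype B.subtype (fun u v => hcomm u u.2 v v.2)
  have hf : ∀ p : A × B, f p = (p.1 : G) * p.2 := fun p => rfl
  have hinj : Function.Injective f := by
    rw [injective_iff_map_eq_one]
    rintro ⟨⟨u, hu⟩, ⟨v, hv⟩⟩ h
    rw [hf] at h
    have hvA : v ∈ A := by
      have : v = u⁻¹ := eq_inv_of_mul_eq_one_right h
      rw [this]; exact A.inv_mem hu
    have hv1 : v = 1 := by
      by_contra hv1
      apply hne
      show b ∈ Subgroup.zpowers a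
      rw [← zpowers_eq_of_mem hao hvA hv1, zpowers_eq_of_mem hbo hv hv1]
      exact Subgroup.mem_zpowers b
    subst hv1
    rw [mul_one] at h
    exact Prod.ext (Subtype.ext h) rfl
  refine ⟨f.range, ⟨?_, ?_, ?_⟩, ?_⟩
  · rintro _ ⟨p, rfl⟩ _ ⟨q, rfl⟩
    rw [← map_mul, ← map_mul]
    obtain ⟨⟨u, hu⟩, ⟨v, hv⟩⟩ := p
    obtain ⟨⟨u', hu'⟩, ⟨v', hv'⟩⟩ := q
    obtain ⟨k₁, rfl⟩ := Subgroup.mem_zpowers_iff.mp hu
    obtain ⟨k₂, rfl⟩ := Subgroup.mem_zpowers_iff.mp hu'
    obtain ⟨k₃, rfl⟩ := Subgroup.mem_zpowers_iff.mp hv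
    obtain ⟨k₄, rfl⟩ := Subgroup.mem_zpowers_iff.mp hv'
    exact congrArg f (Prod.ext (Subtype.ext ((Commute.refl a).zpow_zpow k₁ k₂).eq)
      (Subtype.ext ((Commute.refl b).zpow_zpow k₃ k₄).eq))
  · rintro _ ⟨p, rfl⟩
    rw [← map_pow]
    have e1 : p.1 ^ i = 1 := by rw [← hao, ← Nat.card_zpowers]; exact pow_card_eq_one'
    have e2 : p.2 ^ i = 1 := by rw [← hbo, ← Nat.card_zpowers]; exact pow_card_eq_one'
    rw [show p ^ i = 1 from Prod.ext e1 e2, map_one]
  · rw [show Nat.card f.range = Nat.card (A × B) from (Nat.card_congr (MonoidHom.ofInjective hinj).toEquiv).symm,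
      Nat.card_prod, Nat.card_zpowers, Nat.card_zpowers, hao, hbo, sq]
  · rintro _ ⟨p, rfl⟩
    rw [hf]
    exact X.mul_mem (Subgroup.zpowers_le.mpr ha p.1.2) (Subgroup.zpowers_le.mpr hb p.2.2)

theorem uniq_or_hasE {i : ℕ} [hi : Fact i.Prime] {X : Subgroup G} (hX : IsPGroup i X) :
    Uniq i X ∨ HasE i X := by
  rw [or_iff_not_imp_left]
  intro h
  unfold Uniq at h
  push Not at h
  obtain ⟨a, ha, b, hb, hao, hbo, hne⟩ := h
  haveI : Nontrivial X := ⟨⟨⟨a, ha⟩, 1, fun e => ne_one_of_orderOf hi.out hao (congrArg Subtype.val e)⟩⟩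
  haveI := hX.center_nontrivial
  obtain ⟨z, hz, hzo⟩ := exists_orderOf (hX.to_le (Subgroup.map_subtype_le (Subgroup.center X)))
    (fun e => (Subgroup.nontrivial_iff_ne_bot _).mp inferInstance
      ((Subgroup.map_eq_bot_iff_of_injective _ X.subtype_injective).mp e))
  obtain ⟨⟨z, hzX⟩, hzc, rfl⟩ := hz
  have hcom : ∀ x ∈ X, Commute z x := fun x hx =>
    (congrArg Subtype.val (Subgroup.mem_center_iff.mp hzc ⟨x, hx⟩)).symm
  by_cases hza : a ∈ Subgroup.zpowers z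
  · refine hasE_of_commute hzX hb hzo hbo (hcom b hb) fun hzb => hne ?_
    rw [zpowers_eq_of_mem hzo hza (ne_one_of_orderOf hi.out hao)]
    exact hzb
  · exact hasE_of_commute hzX ha hzo hao (hcom a ha) hza

omit [Finite G] in
theorem mem_fix {X : Subgroup G} {g x : G} :
    x ∈ X ⊓ Subgroup.centralizer ({g} : Set G) ↔ x ∈ X ∧ Commute x g := by
  rw [Subgroup.mem_inf, Subgroup.mem_centralizer_singleton_iff]
  exact Iff.rfl

omit [Finite G] in
/-- `C_Y(g)` is normalised by what normalises `Y` and commutes with `g`. -/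
theorem le_normalizer_fix {A Y : Subgroup G} {g : G} (hAY : A ≤ Subgroup.normalizer (Y : Set G))
    (hA : ∀ a ∈ A, Commute a g) :
    A ≤ Subgroup.normalizer ((Y ⊓ Subgroup.centralizer ({g} : Set G) : Subgroup G) : Set G) := by
  refine H20.le_normalizer_inf hAY (fun a ha => Subgroup.le_normalizer ?_)
  exact Subgroup.mem_centralizer_singleton_iff.mpr (hA a ha)

theorem coprime_of_primes {i j : ℕ} [Fact i.Prime] [Fact j.Prime] (hij : i ≠ j) {X Y : Subgroup G}
    (hX : IsPGroup i X) (hY : IsPGroup j Y) : (Nat.card X).Coprime (Nat.card Y) :=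
  IsPGroup.coprime_card_of_ne i j hij X Y hX hY

theorem inf_eq_bot_of_primes {i j : ℕ} [Fact i.Prime] [Fact j.Prime] (hij : i ≠ j) {X Y : Subgroup G}
    (hX : IsPGroup i X) (hY : IsPGroup j Y) : X ⊓ Y = ⊥ :=
  Subgroup.inf_eq_bot_of_coprime (coprime_of_primes hij hX hY)

/-- A nontrivial group acted on by `E` has a nontrivial fixed point of some nontrivial element. -/
theorem exists_fix {i j : ℕ} [Fact i.Prime] [Fact j.Prime] (hij : i ≠ j) {E Y : Subgroup G} (hE : IsE i E)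
    (hEY : E ≤ Subgroup.normalizer (Y : Set G)) (hY : IsPGroup j Y) (hne : Y ≠ ⊥) :
    ∃ e ∈ E, e ≠ 1 ∧ Y ⊓ Subgroup.centralizer ({e} : Set G) ≠ ⊥ := by
  by_contra h
  push Not at h
  haveI := hE.isMulCommutative
  exact hne (le_bot_iff.mp (H20.le_of_centralizers_le hE.not_isCyclic hEY
    (coprime_of_primes hij hE.isPGroup hY) fun a ha ha1 => (h a ha ha1).le))

/-- An element commuting with `E ≅ Z_i × Z_i` is fixed-point-free on a third group normalised by both. -/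
theorem Setting.rank_fpf {σ : Set ℕ} (hS : Setting G σ) {i j k : ℕ} [Fact i.Prime] [Fact j.Prime] [Fact k.Prime]
    (hi : i ∈ σ) (hj : j ∈ σ) (hk : k ∈ σ) (hij : i ≠ j) (hjk : j ≠ k) (hik : i ≠ k)
    {E Y : Subgroup G} (hE : IsE j E) {y : G} (hy : orderOf y = i) (hyE : ∀ e ∈ E, Commute y e)
    (hEY : E ≤ Subgroup.normalizer (Y : Set G)) (hY : IsPGroup k Y) :
    Y ⊓ Subgroup.centralizer ({y} : Set G) = ⊥ := by
  by_contra hne
  have hY' := hY.to_le (inf_le_left : Y ⊓ Subgroup.centralizer ({y} : Set G) ≤ Y)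
  obtain ⟨e, he, he1, hne'⟩ := exists_fix hjk hE
    (le_normalizer_fix hEY fun e he => (hyE e he).symm) hY' hne
  obtain ⟨v, hv, hvo⟩ := exists_orderOf (hY'.to_le inf_le_left) hne'
  rw [mem_fix, mem_fix] at hv
  exact hS.noTriple y e v (hy ▸ hi) ((hE.orderOf_eq he he1) ▸ hj) (hvo ▸ hk)
    (by rw [hy, hE.orderOf_eq he he1]; exact hij) (by rw [hvo, hE.orderOf_eq he he1]; exact hjk)
    (by rw [hy, hvo]; exact hik) (hyE e he) hv.2.symm hv.1.2.symm

/-- Two commuting groups of rank two cannot normalise a third group. -/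
theorem Setting.rank_rank {σ : Set ℕ} (hS : Setting G σ) {i j k : ℕ} [Fact i.Prime] [Fact j.Prime] [Fact k.Prime]
    (hi : i ∈ σ) (hj : j ∈ σ) (hk : k ∈ σ) (hij : i ≠ j) (hjk : j ≠ k) (hik : i ≠ k)
    {E E' Y : Subgroup G} (hE : IsE i E) (hE' : IsE j E') (hcomm : ∀ e ∈ E, ∀ e' ∈ E', Commute e e')
    (hEY : E ≤ Subgroup.normalizer (Y : Set G)) (hEY' : E' ≤ Subgroup.normalizer (Y : Set G))
    (hY : IsPGroup k Y) : Y = ⊥ := by
  by_contra hne
  obtain ⟨e, he, he1, hne'⟩ := exists_fix hik hE hEY hY hne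
  exact hne' (hS.rank_fpf hi hj hk hij hjk hik hE' (hE.orderOf_eq he he1) (hcomm e he) hEY' hY)

/-- If `g` centralises nontrivial groups for two primes, it fixes nothing for a third. -/
theorem Setting.fix_eq_bot {σ : Set ℕ} (hS : Setting G σ) {s i j k : ℕ} [Fact i.Prime] [Fact j.Prime] [Fact k.Prime]
    (hs : s ∈ σ) (hi : i ∈ σ) (hj : j ∈ σ) (hk : k ∈ σ) (hsi : i ≠ s) (hsj : j ≠ s) (hsk : k ≠ s)
    (hij : i ≠ j) (hjk : j ≠ k) (hik : i ≠ k) {g : G} (hg : orderOf g = s) {X Y Z : Subgroup G}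
    (hX : IsPGroup i X) (hY : IsPGroup j Y) (hZ : IsPGroup k Z)
    (hXg : X ⊓ Subgroup.centralizer ({g} : Set G) ≠ ⊥) (hYg : Y ⊓ Subgroup.centralizer ({g} : Set G) ≠ ⊥) :
    Z ⊓ Subgroup.centralizer ({g} : Set G) = ⊥ := by
  by_contra hZg
  have key : ∀ {l : ℕ} [Fact l.Prime] {W : Subgroup G}, IsPGroup l W →
      W ⊓ Subgroup.centralizer ({g} : Set G) ≠ ⊥ →
      l ∣ Nat.card (Subgroup.centralizer ({g} : Set G)) := by
    intro l _ W hW hne
    obtain ⟨w, hw, hwo⟩ := exists_orderOf (hW.to_le inf_le_left) hne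
    rw [← hwo]
    exact Subgroup.orderOf_dvd_natCard _ (Subgroup.mem_inf.mp hw).2
  exact hS.miss g i j k (hg ▸ hs) hi hj hk (hg ▸ hsi) (hg ▸ hsj) (hg ▸ hsk) hij hjk hik
    (key hX hXg) (key hY hYg) (key hZ hZg)

/-- Two coprime groups on which an element of prime order acts fixed-point-freely commute. -/
theorem commute_of_fpf {i j s : ℕ} [Fact i.Prime] [Fact j.Prime] [hs : Fact s.Prime] (hij : i ≠ j)
    {M Y : Subgroup G} (hM : IsPGroup i M) (hY : IsPGroup j Y) (hMY : M ≤ Subgroup.normalizer (Y : Set G))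
    {k : G} (hk : orderOf k = s) (hkM : k ∈ Subgroup.normalizer (M : Set G))
    (hkY : k ∈ Subgroup.normalizer (Y : Set G))
    (hfM : M ⊓ Subgroup.centralizer ({k} : Set G) = ⊥) (hfY : Y ⊓ Subgroup.centralizer ({k} : Set G) = ⊥) :
    ∀ m ∈ M, ∀ y ∈ Y, Commute m y := by
  set L := Y ⊔ M with hL
  have hKL : Subgroup.zpowers k ≤ Subgroup.normalizer (L : Set G) :=
    Subgroup.zpowers_le.mpr (Subgroup.normalizer_inf_normalizer_le_normalizer_sup Y M ⟨hkY, hkM⟩)
  have hnil : Group.IsNilpotent L := by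
    refine H21.isNilpotent_of_fpf_action (H20.conjAut hKL) (a := ⟨k, Subgroup.mem_zpowers k⟩) hs.out
      (Subtype.ext (by rw [SubmonoidClass.coe_pow, ← hk, pow_orderOf_eq_one]; rfl)) ?_
    intro x hx
    have hxk : k * (x : G) * k⁻¹ = x := congrArg Subtype.val hx
    have hxmem : (x : G) ∈ ((Y ⊔ M : Subgroup G) : Set G) := x.2
    rw [Subgroup.coe_mul_of_right_le_normalizer_left Y M hMY] at hxmem
    obtain ⟨y, hy, m, hm, hym⟩ := hxmem
    have hy' : k * y * k⁻¹ ∈ Y := (Subgroup.mem_normalizer_iff.mp hkY y).mp hy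
    have hm' : k * m * k⁻¹ ∈ M := (Subgroup.mem_normalizer_iff.mp hkM m).mp hm
    have e : y⁻¹ * (k * y * k⁻¹) = m * (k * m * k⁻¹)⁻¹ := by
      have : k * y * k⁻¹ * (k * m * k⁻¹) = y * m := by
        have h1 : y * m = (x : G) := hym
        rw [h1]; conv_rhs => rw [← hxk, ← h1]
        group
      rw [eq_mul_inv_iff_mul_eq, mul_assoc, this, inv_mul_cancel_left]
    have hmem : y⁻¹ * (k * y * k⁻¹) ∈ Y ⊓ M :=
      Subgroup.mem_inf.mpr ⟨Y.mul_mem (Y.inv_mem hy) hy', e ▸ M.mul_mem hm (M.inv_mem hm')⟩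
    rw [inf_eq_bot_of_primes (Ne.symm hij) hY hM, Subgroup.mem_bot] at hmem
    have hy1 : y = 1 := by
      refine Subgroup.mem_bot.mp (hfY.le (mem_fix.mpr ⟨hy, ?_⟩))
      exact (mul_inv_eq_iff_eq_mul.mp (inv_mul_eq_one.mp hmem).symm).symm
    have hm1 : m = 1 := by
      refine Subgroup.mem_bot.mp (hfM.le (mem_fix.mpr ⟨hm, ?_⟩))
      exact (mul_inv_eq_iff_eq_mul.mp (mul_inv_eq_one.mp (e ▸ hmem)).symm).symm
    apply Subtype.ext
    show (x : G) = 1
    rw [← hym]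
    simp [hy1, hm1]
  intro m hm y hy
  have hm' : m ∈ L := Subgroup.mem_sup_right hm
  have hy' : y ∈ L := Subgroup.mem_sup_left hy
  have := H21.commute_of_coprime_of_nilpotent (x := (⟨m, hm'⟩ : L)) (y := ⟨y, hy'⟩) (by
    rw [Subgroup.orderOf_mk, Subgroup.orderOf_mk]
    exact Nat.Coprime.coprime_dvd_left (Subgroup.orderOf_dvd_natCard M hm)
      (Nat.Coprime.coprime_dvd_right (Subgroup.orderOf_dvd_natCard Y hy) (coprime_of_primes hij hM hY)))
  exact congrArg Subtype.val this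

/-- No element of prime order commutes with nontrivial commuting groups for two other primes. -/
theorem Setting.commuting_false {σ : Set ℕ} (hS : Setting G σ) {i j k : ℕ} [Fact i.Prime] [Fact j.Prime]
    (hi : i ∈ σ) (hj : j ∈ σ) (hk : k ∈ σ) (hij : i ≠ j) (hjk : j ≠ k) (hik : i ≠ k)
    {X Y : Subgroup G} (hX : IsPGroup i X) (hY : IsPGroup j Y) (hXne : X ≠ ⊥) (hYne : Y ≠ ⊥)
    (hXY : ∀ x ∈ X, ∀ y ∈ Y, Commute x y) {z : G} (hz : orderOf z = k) (hzX : ∀ x ∈ X, Commute z x)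
    (hzY : ∀ y ∈ Y, Commute z y) : False := by
  obtain ⟨x, hx, hxo⟩ := exists_orderOf hX hXne
  obtain ⟨y, hy, hyo⟩ := exists_orderOf hY hYne
  exact hS.noTriple x y z (hxo ▸ hi) (hyo ▸ hj) (hz ▸ hk) (by rwa [hxo, hyo]) (by rwa [hyo, hz])
    (by rwa [hxo, hz]) (hXY x hx y hy) (hzY y hy).symm (hzX x hx).symm

end Cfsg.Agent.H84.FourPrimes
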