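import Mathlib
import Cfsg.Agent.H84.FourPrimes.Basic

set_option autoImplicit false

/-! Centralisers of a rank two group acting on a chain of three coprime groups. -/

open scoped commutatorElement

namespace Cfsg.Agent.H84.FourPrimes

variable {G : Type*} [Group G] [Finite G] {σ : Set ℕ}

omit [Finite G] in
theorem fixF_le_fix {F Y : Subgroup G} {f : G} (hf : f ∈ F) :
    Y ⊓ Subgroup.centralizer (F : Set G) ≤ Y ⊓ Subgroup.centralizer ({f} : Set G) :=
  inf_le_inf_left Y (Subgroup.centralizer_le (Set.singleton_subset_iff.mpr hf))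

omit [Finite G] in
theorem mem_normalizer_zpowers_of_conj {i : ℕ} [Fact i.Prime] [Finite G] {x g : G} (hx : orderOf x = i)
    (h : g * x * g⁻¹ ∈ Subgroup.zpowers x) : g ∈ Subgroup.normalizer (Subgroup.zpowers x : Set G) := by
  rw [Subgroup.mem_normalizer_iff_map_conj_eq, MonoidHom.map_zpowers]
  exact zpowers_eq_of_mem hx h fun e => ne_one_of_orderOf (Fact.out : i.Prime) hx (conj_eq_one_iff.mp e)

/-- If `f` fixes points on `X` and on `Y` and `F` fixes none on `Y`, then the elements of order `i`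
of `C_X(f)` are fixed by `F`. -/
theorem Setting.fix_mem_centralizer (hS : Setting G σ) {i j s : ℕ} [Fact i.Prime] [Fact j.Prime] [Fact s.Prime]
    (hi : i ∈ σ) (hj : j ∈ σ) (hs : s ∈ σ) (hij : i ≠ j) (hjs : j ≠ s) (his : i ≠ s)
    {F X Y : Subgroup G} (hF : IsE s F) (hX : IsPGroup i X) (hY : IsPGroup j Y)
    (hXY : X ≤ Subgroup.normalizer (Y : Set G)) (hFX : F ≤ Subgroup.normalizer (X : Set G))
    (hFY : F ≤ Subgroup.normalizer (Y : Set G)) {f : G} (hf : f ∈ F) (hf1 : f ≠ 1)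
    (hYf : Y ⊓ Subgroup.centralizer ({f} : Set G) ≠ ⊥)
    (hYF : Y ⊓ Subgroup.centralizer (F : Set G) = ⊥)
    {x : G} (hx : x ∈ X ⊓ Subgroup.centralizer ({f} : Set G)) (hxo : orderOf x = i) :
    x ∈ Subgroup.centralizer (F : Set G) := by
  have hfo := hF.orderOf_eq hf hf1
  set U := X ⊓ Subgroup.centralizer ({f} : Set G) with hU
  have huniq : Uniq i U := (uniq_or_hasE (hX.to_le inf_le_left)).resolve_right fun ⟨E, hE, hEU⟩ =>
    hYf (hS.rank_fpf hs hi hj his.symm hij hjs.symm hE hfo (fun e he => (mem_fix.mp (hEU he)).2.symm)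
      ((hEU.trans inf_le_left).trans hXY) hY)
  obtain ⟨f', hf', hff'⟩ := hF.exists_not_mem hf
  by_cases hc : Commute x f'
  · exact hF.le_centralizer hf hf1 hf' hff' (mem_fix.mp hx).2 hc
  exfalso
  have hf'1 : f' ≠ 1 := fun e => hff' (e ▸ Subgroup.one_mem _)
  have hcomm : ∀ a ∈ Subgroup.zpowers x, Commute a f := by
    intro a ha
    obtain ⟨n, rfl⟩ := Subgroup.mem_zpowers_iff.mp ha
    exact (mem_fix.mp hx).2.zpow_left n
  have hFU : F ≤ Subgroup.normalizer (U : Set G) :=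
    le_normalizer_fix hFX fun a ha => hF.comm a ha f hf
  have hconj : f' * x * f'⁻¹ ∈ U := (Subgroup.mem_normalizer_iff.mp (hFU hf') x).mp hx
  have hnM := mem_normalizer_zpowers_of_conj hxo (huniq x hx _ hconj hxo (by
    rw [← hxo]; exact MulEquiv.orderOf_eq (MulAut.conj f') x))
  have key := commute_of_fpf (M := Subgroup.zpowers x) (Y := Y ⊓ Subgroup.centralizer ({f} : Set G))
    (k := f') (s := s) hij (isPGroup_zpowers hxo) (hY.to_le inf_le_left)
    (le_normalizer_fix ((Subgroup.zpowers_le.mpr (Subgroup.mem_inf.mp hx).1).trans hXY) hcomm)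
    (hF.orderOf_eq hf' hf'1) hnM (le_normalizer_fix hFY (fun a ha => hF.comm a ha f hf) hf')
    (by
      rw [eq_bot_iff]
      intro y hy
      obtain ⟨hyx, hyf⟩ := mem_fix.mp hy
      by_contra hy1
      have hxy : x ∈ Subgroup.zpowers y := zpowers_eq_of_mem hxo hyx hy1 ▸ Subgroup.mem_zpowers x
      obtain ⟨n, hn⟩ := Subgroup.mem_zpowers_iff.mp hxy
      exact hc (hn ▸ hyf.zpow_left n))
    (by
      rw [eq_bot_iff, ← hYF]
      intro y hy
      obtain ⟨hy, hyf'⟩ := mem_fix.mp hy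
      obtain ⟨hyY, hyf⟩ := mem_fix.mp hy
      exact Subgroup.mem_inf.mpr ⟨hyY, hF.le_centralizer hf hf1 hf' hff' hyf hyf'⟩)
  obtain ⟨v, hv, hvo⟩ := exists_orderOf (hY.to_le inf_le_left) hYf
  exact hS.noTriple x f v (hxo ▸ hi) (hfo ▸ hs) (hvo ▸ hj) (by rw [hxo, hfo]; exact his)
    (by rw [hfo, hvo]; exact hjs.symm) (by rw [hxo, hvo]; exact hij) (mem_fix.mp hx).2 (mem_fix.mp hv).2.symm
    (key x (Subgroup.mem_zpowers x) v hv)

/-- Disjoint supports when `F` has no fixed points. -/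
theorem Setting.disjoint_fix (hS : Setting G σ) {i j s : ℕ} [Fact i.Prime] [Fact j.Prime] [Fact s.Prime]
    (hi : i ∈ σ) (hj : j ∈ σ) (hs : s ∈ σ) (hij : i ≠ j) (hjs : j ≠ s) (his : i ≠ s)
    {F X Y : Subgroup G} (hF : IsE s F) (hX : IsPGroup i X) (hY : IsPGroup j Y)
    (hXY : X ≤ Subgroup.normalizer (Y : Set G)) (hFX : F ≤ Subgroup.normalizer (X : Set G))
    (hFY : F ≤ Subgroup.normalizer (Y : Set G))
    (hXF : X ⊓ Subgroup.centralizer (F : Set G) = ⊥) (hYF : Y ⊓ Subgroup.centralizer (F : Set G) = ⊥)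
    {f : G} (hf : f ∈ F) (hf1 : f ≠ 1) :
    X ⊓ Subgroup.centralizer ({f} : Set G) = ⊥ ∨ Y ⊓ Subgroup.centralizer ({f} : Set G) = ⊥ := by
  by_contra h
  push Not at h
  obtain ⟨x, hx, hxo⟩ := exists_orderOf (hX.to_le inf_le_left) h.1
  have := hS.fix_mem_centralizer hi hj hs hij hjs his hF hX hY hXY hFX hFY hf hf1 h.2 hYF hx hxo
  refine ne_one_of_orderOf (Fact.out : i.Prime) hxo (Subgroup.mem_bot.mp (hXF.le ?_))
  exact Subgroup.mem_inf.mpr ⟨(Subgroup.mem_inf.mp hx).1, this⟩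

/-- With pairwise disjoint supports the lower group centralises the upper one. -/
theorem commute_of_disjoint {i j k s : ℕ} [Fact i.Prime] [Fact j.Prime] [Fact k.Prime] [Fact s.Prime]
    (hij : i ≠ j) (his : i ≠ s) (hks : k ≠ s)
    {F X Y Z : Subgroup G} (hF : IsE s F) (hX : IsPGroup i X) (hY : IsPGroup j Y) (hZ : IsPGroup k Z) (hZne : Z ≠ ⊥)
    (hXY : X ≤ Subgroup.normalizer (Y : Set G)) (hFX : F ≤ Subgroup.normalizer (X : Set G))
    (hFY : F ≤ Subgroup.normalizer (Y : Set G)) (hFZ : F ≤ Subgroup.normalizer (Z : Set G))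
    (hXZ : ∀ f ∈ F, f ≠ 1 → X ⊓ Subgroup.centralizer ({f} : Set G) = ⊥ ∨ Z ⊓ Subgroup.centralizer ({f} : Set G) = ⊥)
    (hYZ : ∀ f ∈ F, f ≠ 1 → Y ⊓ Subgroup.centralizer ({f} : Set G) = ⊥ ∨ Z ⊓ Subgroup.centralizer ({f} : Set G) = ⊥) :
    ∀ x ∈ X, ∀ y ∈ Y, Commute x y := by
  obtain ⟨g, hg, hg1, hZg⟩ := exists_fix hks.symm hF hFZ hZ hZne
  have hYg := (hYZ g hg hg1).resolve_right hZg
  have hXg := (hXZ g hg hg1).resolve_right hZg
  haveI := hF.isMulCommutative
  have hle : X ≤ Subgroup.centralizer (Y : Set G) := by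
    refine H20.le_of_centralizers_le hF.not_isCyclic hFX (coprime_of_primes his.symm hF.isPGroup hX) ?_
    intro f hf _ x hx
    rw [Subgroup.mem_centralizer_iff]
    intro y hy
    exact (commute_of_fpf (s := s) hij (hX.to_le inf_le_left) hY (inf_le_left.trans hXY) (hF.orderOf_eq hg hg1)
      (le_normalizer_fix hFX (fun a ha => hF.comm a ha f hf) hg) (hFY hg)
      (le_bot_iff.mp ((inf_le_inf_right _ inf_le_left).trans hXg.le)) hYg x hx y hy).symm.eq
  intro x hx y hy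
  exact (Subgroup.mem_centralizer_iff.mp (hle hx) y hy).symm

/-- At most one of three groups has points fixed by all of `F`. -/
theorem Setting.eq_bot_of_two_fixed (hS : Setting G σ) {i j k s : ℕ} [Fact i.Prime] [Fact j.Prime] [Fact k.Prime]
    [Fact s.Prime] (hi : i ∈ σ) (hj : j ∈ σ) (hk : k ∈ σ) (hs : s ∈ σ) (his : i ≠ s) (hjs : j ≠ s) (hks : k ≠ s)
    (hij : i ≠ j) (hjk : j ≠ k) (hik : i ≠ k)
    {F X Y Z : Subgroup G} (hF : IsE s F) (hX : IsPGroup i X) (hY : IsPGroup j Y) (hZ : IsPGroup k Z)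
    (hFZ : F ≤ Subgroup.normalizer (Z : Set G))
    (hXF : X ⊓ Subgroup.centralizer (F : Set G) ≠ ⊥) (hYF : Y ⊓ Subgroup.centralizer (F : Set G) ≠ ⊥) :
    Z = ⊥ := by
  by_contra hne
  obtain ⟨f, hf, hf1, hZf⟩ := exists_fix hks.symm hF hFZ hZ hne
  exact hZf (hS.fix_eq_bot hs hi hj hk his hjs hks hij hjk hik (hF.orderOf_eq hf hf1) hX hY hZ
    (ne_bot_of_le_ne_bot hXF (fixF_le_fix hf)) (ne_bot_of_le_ne_bot hYF (fixF_le_fix hf)))

/-- If one element of `F` does not centralise `X` then some other one has fixed points on `X`. -/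
theorem exists_fix_outside {i s : ℕ} [Fact i.Prime] [Fact s.Prime] (his : i ≠ s)
    {F X : Subgroup G} (hF : IsE s F) (hX : IsPGroup i X) (hFX : F ≤ Subgroup.normalizer (X : Set G))
    {f : G} (hfo : orderOf f = s) (hns : ¬ X ≤ Subgroup.centralizer ({f} : Set G)) :
    ∃ g ∈ F, g ≠ 1 ∧ g ∉ Subgroup.zpowers f ∧ X ⊓ Subgroup.centralizer ({g} : Set G) ≠ ⊥ := by
  by_contra h
  push Not at h
  haveI := hF.isMulCommutative
  refine hns (H20.le_of_centralizers_le hF.not_isCyclic hFX (coprime_of_primes his.symm hF.isPGroup hX) ?_)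
  intro a ha ha1 x hx
  by_cases haf : a ∈ Subgroup.zpowers f
  · have hfF : Commute x f → x ∈ Subgroup.centralizer ({f} : Set G) :=
      fun h => Subgroup.mem_centralizer_singleton_iff.mpr h
    apply hfF
    have hfa : f ∈ Subgroup.zpowers a := by
      rw [zpowers_eq_of_mem hfo haf ha1]
      exact Subgroup.mem_zpowers f
    obtain ⟨m, rfl⟩ := Subgroup.mem_zpowers_iff.mp hfa
    exact (mem_fix.mp hx).2.zpow_right m
  · rw [h a ha ha1 haf, Subgroup.mem_bot] at hx
    subst hx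
    exact Subgroup.one_mem _

end Cfsg.Agent.H84.FourPrimes
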