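import Mathlib
import Cfsg.Agent.H84.FourPrimes.Cases

set_option autoImplicit false

/-! A chain of three groups of three primes normalised by a rank two group of a fourth prime. -/

open scoped commutatorElement

namespace Cfsg.Agent.H84.FourPrimes

variable {G : Type*} [Group G] [Finite G]

/-- The configuration: `V` normalised by `W`, `D`, `F`; `W` by `D`, `F`; `D` by `F`. -/
structure Chain (σ : Set ℕ) (p q r s : ℕ) (V W D F : Subgroup G) : Prop where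
  setting : Setting G σ
  hp : p ∈ σ
  hq : q ∈ σ
  hr : r ∈ σ
  hs : s ∈ σ
  pq : p ≠ q
  pr : p ≠ r
  ps : p ≠ s
  qr : q ≠ r
  qs : q ≠ s
  rs : r ≠ s
  pgV : IsPGroup p V
  pgW : IsPGroup q W
  pgD : IsPGroup r D
  elemF : IsE s F
  neV : V ≠ ⊥
  rankW : HasE q W
  rankD : HasE r D
  WV : W ≤ Subgroup.normalizer (V : Set G)
  DV : D ≤ Subgroup.normalizer (V : Set G)
  FV : F ≤ Subgroup.normalizer (V : Set G)
  DW : D ≤ Subgroup.normalizer (W : Set G)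
  FW : F ≤ Subgroup.normalizer (W : Set G)
  FD : F ≤ Subgroup.normalizer (D : Set G)

variable {σ : Set ℕ} {p q r s : ℕ} [hpf : Fact p.Prime] [hqf : Fact q.Prime] [hrf : Fact r.Prime]
  [hsf : Fact s.Prime] {V W D F : Subgroup G}

theorem HasE.ne_bot {i : ℕ} [hi : Fact i.Prime] {X : Subgroup G} (h : HasE i X) : X ≠ ⊥ := by
  obtain ⟨E, hE, hEX⟩ := h
  intro e
  have : E = ⊥ := le_bot_iff.mp (e ▸ hEX)
  have hc := hE.card
  rw [this, Subgroup.card_bot] at hc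
  nlinarith [hi.out.two_le]

/-- No `f` centralises a rank two group and fixes points on another. -/
theorem Setting.not_le_centralizer {σ : Set ℕ} (hS : Setting G σ) {i j s : ℕ} [Fact i.Prime] [Fact j.Prime]
    [Fact s.Prime] (hi : i ∈ σ) (hj : j ∈ σ) (hs : s ∈ σ) (hsi : s ≠ i) (hij : i ≠ j) (hsj : s ≠ j)
    {X Y : Subgroup G} (hX : HasE i X) (hXY : X ≤ Subgroup.normalizer (Y : Set G)) (hY : IsPGroup j Y)
    {f : G} (hfo : orderOf f = s) (hYf : Y ⊓ Subgroup.centralizer ({f} : Set G) ≠ ⊥) :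
    ¬ X ≤ Subgroup.centralizer ({f} : Set G) := fun hle => by
  obtain ⟨E, hE, hEX⟩ := hX
  exact hYf (hS.rank_fpf hs hi hj hsi hij hsj hE hfo
    (fun e he => (Subgroup.mem_centralizer_singleton_iff.mp (hle (hEX he))).symm) (hEX.trans hXY) hY)

/-- The case `C_V(F) ≠ 1`. -/
theorem Chain.false_of_V (h : Chain σ p q r s V W D F) (hV : V ⊓ Subgroup.centralizer (F : Set G) ≠ ⊥)
    (hD : D ⊓ Subgroup.centralizer (F : Set G) = ⊥) : False := by
  have hS := h.setting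
  have hfixV : ∀ f ∈ F, V ⊓ Subgroup.centralizer ({f} : Set G) ≠ ⊥ := fun f hf =>
    ne_bot_of_le_ne_bot hV (fixF_le_fix hf)
  have hdis : ∀ f ∈ F, f ≠ 1 → D ⊓ Subgroup.centralizer ({f} : Set G) ≠ ⊥ →
      W ⊓ Subgroup.centralizer ({f} : Set G) = ⊥ := fun f hf hf1 hDf =>
    hS.fix_eq_bot h.hs h.hp h.hr h.hq h.ps h.rs h.qs h.pr h.qr.symm h.pq (h.elemF.orderOf_eq hf hf1)
      h.pgV h.pgD h.pgW (hfixV f hf) hDf
  -- an element of order `r` of `C_D(f)` centralises `W`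
  have key : ∀ f ∈ F, f ≠ 1 → ∀ g ∈ F, g ≠ 1 → g ∉ Subgroup.zpowers f →
      D ⊓ Subgroup.centralizer ({g} : Set G) ≠ ⊥ → ∀ a ∈ D ⊓ Subgroup.centralizer ({f} : Set G), orderOf a = r →
      ∀ w ∈ W, Commute a w := by
    intro f hf hf1 g hg hg1 hgf hDg a ha hao
    have hfo := h.elemF.orderOf_eq hf hf1
    have huniq : Uniq r (D ⊓ Subgroup.centralizer ({f} : Set G)) :=
      (uniq_or_hasE (h.pgD.to_le inf_le_left)).resolve_right fun ⟨E, hE, hEU⟩ =>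
        hfixV f hf (hS.rank_fpf h.hs h.hr h.hp h.rs.symm h.pr.symm h.ps.symm hE hfo
          (fun e he => (mem_fix.mp (hEU he)).2.symm) ((hEU.trans inf_le_left).trans h.DV) h.pgV)
    have hconj : g * a * g⁻¹ ∈ D ⊓ Subgroup.centralizer ({f} : Set G) :=
      (Subgroup.mem_normalizer_iff.mp (le_normalizer_fix h.FD (fun x hx => h.elemF.comm x hx f hf) hg) a).mp ha
    have hn := mem_normalizer_zpowers_of_conj hao (huniq a ha _ hconj hao (by
      rw [← hao]; exact MulEquiv.orderOf_eq (MulAut.conj g) a))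
    refine commute_of_fpf (s := s) h.qr.symm (isPGroup_zpowers hao) h.pgW
      ((Subgroup.zpowers_le.mpr (Subgroup.mem_inf.mp ha).1).trans h.DW) (h.elemF.orderOf_eq hg hg1) hn (h.FW hg)
      ?_ (hdis g hg hg1 hDg) a (Subgroup.mem_zpowers a)
    rw [eq_bot_iff]
    intro x hx
    obtain ⟨hxa, hxg⟩ := mem_fix.mp hx
    by_contra hx1
    obtain ⟨n, hn⟩ := Subgroup.mem_zpowers_iff.mp
      (show a ∈ Subgroup.zpowers x from zpowers_eq_of_mem hao hxa hx1 ▸ Subgroup.mem_zpowers a)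
    apply ne_one_of_orderOf hrf.out hao
    refine Subgroup.mem_bot.mp (hD.le (Subgroup.mem_inf.mpr ⟨(Subgroup.mem_inf.mp ha).1, ?_⟩))
    exact h.elemF.le_centralizer hf hf1 hg hgf (mem_fix.mp ha).2 (hn ▸ hxg.zpow_left n)
  obtain ⟨f₁, hf₁, hf₁1, hD₁⟩ := exists_fix h.rs.symm h.elemF h.FD h.pgD h.rankD.ne_bot
  obtain ⟨f₂, hf₂, hf₂1, hf₂₁, hD₂⟩ := exists_fix_outside h.rs h.elemF h.pgD h.FD (h.elemF.orderOf_eq hf₁ hf₁1)
    (hS.not_le_centralizer h.hr h.hp h.hs h.rs.symm h.pr.symm h.ps.symm h.rankD h.DV h.pgV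
      (h.elemF.orderOf_eq hf₁ hf₁1) (hfixV f₁ hf₁))
  obtain ⟨a₁, ha₁, ha₁o⟩ := exists_orderOf (h.pgD.to_le inf_le_left) hD₁
  obtain ⟨a₂, ha₂, ha₂o⟩ := exists_orderOf (h.pgD.to_le inf_le_left) hD₂
  have hf₁₂ : f₁ ∉ Subgroup.zpowers f₂ := fun e =>
    hf₂₁ (zpowers_eq_of_mem (h.elemF.orderOf_eq hf₂ hf₂1) e hf₁1 ▸ Subgroup.mem_zpowers f₂)
  have h₁ := key f₁ hf₁ hf₁1 f₂ hf₂ hf₂1 hf₂₁ hD₂ a₁ ha₁ ha₁o
  have h₂ := key f₂ hf₂ hf₂1 f₁ hf₁ hf₁1 hf₁₂ hD₁ a₂ ha₂ ha₂o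
  set D₀ := D ⊓ Subgroup.centralizer (W : Set G)
  have hmem : ∀ a ∈ D, (∀ w ∈ W, Commute a w) → a ∈ D₀ := fun a ha hc =>
    Subgroup.mem_inf.mpr ⟨ha, Subgroup.mem_centralizer_iff.mpr fun w hw => (hc w hw).symm.eq⟩
  rcases uniq_or_hasE (h.pgD.to_le (inf_le_left : D₀ ≤ D)) with hu | ⟨E, hE, hED⟩
  · have h21 := hu a₁ (hmem a₁ (Subgroup.mem_inf.mp ha₁).1 h₁) a₂ (hmem a₂ (Subgroup.mem_inf.mp ha₂).1 h₂) ha₁o ha₂o
    obtain ⟨n, rfl⟩ := Subgroup.mem_zpowers_iff.mp h21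
    apply ne_one_of_orderOf hrf.out ha₂o
    refine Subgroup.mem_bot.mp (hD.le (Subgroup.mem_inf.mpr ⟨(Subgroup.mem_inf.mp ha₂).1, ?_⟩))
    exact h.elemF.le_centralizer hf₁ hf₁1 hf₂ hf₂₁ ((mem_fix.mp ha₁).2.zpow_left n) (mem_fix.mp ha₂).2
  · obtain ⟨E', hE', hEW⟩ := h.rankW
    exact h.neV (hS.rank_rank h.hr h.hq h.hp h.qr.symm h.pq.symm h.pr.symm hE hE'
      (fun e he e' he' => (Subgroup.mem_centralizer_iff.mp (Subgroup.mem_inf.mp (hED he)).2 e' (hEW he')).symm)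
      ((hED.trans inf_le_left).trans h.DV) (hEW.trans h.WV) h.pgV)

/-- The case `C_W(F) ≠ 1`. -/
theorem Chain.false_of_W (h : Chain σ p q r s V W D F) (hW : W ⊓ Subgroup.centralizer (F : Set G) ≠ ⊥)
    (hD : D ⊓ Subgroup.centralizer (F : Set G) = ⊥) : False := by
  have hS := h.setting
  have hfixW : ∀ f ∈ F, W ⊓ Subgroup.centralizer ({f} : Set G) ≠ ⊥ := fun f hf =>
    ne_bot_of_le_ne_bot hW (fixF_le_fix hf)
  obtain ⟨f, hf, hf1, hDf⟩ := exists_fix h.rs.symm h.elemF h.FD h.pgD h.rankD.ne_bot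
  have hfo := h.elemF.orderOf_eq hf hf1
  obtain ⟨g, hg, hg1, hgf, hDg⟩ := exists_fix_outside h.rs h.elemF h.pgD h.FD hfo
    (hS.not_le_centralizer h.hr h.hq h.hs h.rs.symm h.qr.symm h.qs.symm h.rankD h.DW h.pgW hfo (hfixW f hf))
  have hVg : V ⊓ Subgroup.centralizer ({g} : Set G) = ⊥ :=
    hS.fix_eq_bot h.hs h.hq h.hr h.hp h.qs h.rs h.ps h.qr h.pr.symm h.pq.symm (h.elemF.orderOf_eq hg hg1)
      h.pgW h.pgD h.pgV (hfixW g hg) hDg
  obtain ⟨a, ha, hao⟩ := exists_orderOf (h.pgD.to_le inf_le_left) hDf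
  have haD := (Subgroup.mem_inf.mp ha).1
  have huniq : Uniq r (D ⊓ Subgroup.centralizer ({f} : Set G)) :=
    (uniq_or_hasE (h.pgD.to_le inf_le_left)).resolve_right fun ⟨E, hE, hEU⟩ =>
      hfixW f hf (hS.rank_fpf h.hs h.hr h.hq h.rs.symm h.qr.symm h.qs.symm hE hfo
        (fun e he => (mem_fix.mp (hEU he)).2.symm) ((hEU.trans inf_le_left).trans h.DW) h.pgW)
  have hconj : g * a * g⁻¹ ∈ D ⊓ Subgroup.centralizer ({f} : Set G) :=
    (Subgroup.mem_normalizer_iff.mp (le_normalizer_fix h.FD (fun x hx => h.elemF.comm x hx f hf) hg) a).mp ha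
  have hn := mem_normalizer_zpowers_of_conj hao (huniq a ha _ hconj hao (by
    rw [← hao]; exact MulEquiv.orderOf_eq (MulAut.conj g) a))
  have haV : ∀ v ∈ V, Commute a v := by
    refine commute_of_fpf (s := s) h.pr.symm (isPGroup_zpowers hao) h.pgV
      ((Subgroup.zpowers_le.mpr haD).trans h.DV) (h.elemF.orderOf_eq hg hg1) hn (h.FV hg) ?_ hVg a
      (Subgroup.mem_zpowers a)
    rw [eq_bot_iff]
    intro x hx
    obtain ⟨hxa, hxg⟩ := mem_fix.mp hx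
    by_contra hx1
    obtain ⟨n, hn⟩ := Subgroup.mem_zpowers_iff.mp
      (show a ∈ Subgroup.zpowers x from zpowers_eq_of_mem hao hxa hx1 ▸ Subgroup.mem_zpowers a)
    apply ne_one_of_orderOf hrf.out hao
    refine Subgroup.mem_bot.mp (hD.le (Subgroup.mem_inf.mpr ⟨haD, ?_⟩))
    exact h.elemF.le_centralizer hf hf1 hg hgf (mem_fix.mp ha).2 (hn ▸ hxg.zpow_left n)
  -- `a` is fixed-point-free on `W`
  have hVa : V ⊓ Subgroup.centralizer ({a} : Set G) ≠ ⊥ := fun e => h.neV (by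
    rw [← e, eq_comm, inf_eq_left]
    exact fun v hv => Subgroup.mem_centralizer_singleton_iff.mpr (haV v hv).symm)
  have hFa : F ⊓ Subgroup.centralizer ({a} : Set G) ≠ ⊥ := fun e => hf1 (Subgroup.mem_bot.mp
    (e.le (mem_fix.mpr ⟨hf, (mem_fix.mp ha).2.symm⟩)))
  have hWa : W ⊓ Subgroup.centralizer ({a} : Set G) = ⊥ :=
    hS.fix_eq_bot h.hr h.hp h.hs h.hq h.pr h.rs.symm h.qr h.ps h.qs.symm h.pq hao h.pgV h.elemF.isPGroup h.pgW
      hVa hFa
  -- so `W` centralises `V`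
  let φ : W → W := fun w => ⟨⁅(w : G), a⁆, by
    rw [commutatorElement_def, mul_assoc, mul_assoc]
    exact W.mul_mem w.2 ((mul_assoc a _ _) ▸
      (Subgroup.mem_normalizer_iff.mp (h.DW haD) _).mp (W.inv_mem w.2))⟩
  have hinj : Function.Injective φ := by
    intro u v e
    have e' : (u : G) * a * (u : G)⁻¹ * a⁻¹ = (v : G) * a * (v : G)⁻¹ * a⁻¹ := congrArg Subtype.val e
    have e'' := mul_right_cancel e'
    have hc : Commute ((v : G)⁻¹ * u) a := by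
      show (v : G)⁻¹ * u * a = a * ((v : G)⁻¹ * u)
      calc (v : G)⁻¹ * u * a = (v : G)⁻¹ * (u * a * (u : G)⁻¹) * u := by group
        _ = a * ((v : G)⁻¹ * u) := by rw [e'']; group
    have := Subgroup.mem_bot.mp (hWa.le (mem_fix.mpr ⟨W.mul_mem (W.inv_mem v.2) u.2, hc⟩))
    exact Subtype.ext (inv_mul_eq_one.mp this).symm
  have hWV : ∀ w ∈ W, ∀ v ∈ V, Commute w v := by
    intro w hw v hv
    obtain ⟨u, hu⟩ := Finite.injective_iff_surjective.mp hinj ⟨w, hw⟩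
    have hu' : (u : G) * a * (u : G)⁻¹ * a⁻¹ = w := congrArg Subtype.val hu
    rw [← hu']
    have h1 : Commute ((u : G) * a * (u : G)⁻¹) v := by
      have hv' : (u : G)⁻¹ * v * u ∈ V := (Subgroup.mem_normalizer_iff''.mp (h.WV u.2) v).mp hv
      have := (haV _ hv').map (MulAut.conj (u : G)).toMonoidHom
      simpa [mul_assoc] using this
    exact h1.mul_left (haV v hv).inv_left
  obtain ⟨w, hw, hwo⟩ := exists_orderOf (h.pgW.to_le inf_le_left) hW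
  have := hS.rank_fpf h.hq h.hs h.hp h.qs h.ps.symm h.pq.symm h.elemF hwo
    (fun e he => (Subgroup.mem_centralizer_iff.mp (Subgroup.mem_inf.mp hw).2 e he).symm) h.FV h.pgV
  refine h.neV (le_bot_iff.mp (le_trans (le_inf le_rfl fun v hv => ?_) this.le))
  exact Subgroup.mem_centralizer_singleton_iff.mpr (hWV w (Subgroup.mem_inf.mp hw).1 v hv).symm

/-- The case where `F` fixes nothing. -/
theorem Chain.false_of_none (h : Chain σ p q r s V W D F) (hD : D ⊓ Subgroup.centralizer (F : Set G) = ⊥)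
    (hW : W ⊓ Subgroup.centralizer (F : Set G) = ⊥) (hV : V ⊓ Subgroup.centralizer (F : Set G) = ⊥) : False := by
  have hS := h.setting
  have dDW := fun f hf hf1 => hS.disjoint_fix h.hr h.hq h.hs h.qr.symm h.qs h.rs h.elemF h.pgD h.pgW h.DW h.FD h.FW
    hD hW (f := f) hf hf1
  have dDV := fun f hf hf1 => hS.disjoint_fix h.hr h.hp h.hs h.pr.symm h.ps h.rs h.elemF h.pgD h.pgV h.DV h.FD h.FV
    hD hV (f := f) hf hf1
  have dWV := fun f hf hf1 => hS.disjoint_fix h.hq h.hp h.hs h.pq.symm h.ps h.qs h.elemF h.pgW h.pgV h.WV h.FW h.FV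
    hW hV (f := f) hf hf1
  have cDW := commute_of_disjoint h.qr.symm h.rs h.ps h.elemF h.pgD h.pgW h.pgV h.neV h.DW h.FD h.FW h.FV dDV dWV
  have cDV := commute_of_disjoint h.pr.symm h.rs h.qs h.elemF h.pgD h.pgV h.pgW h.rankW.ne_bot h.DV h.FD h.FV h.FW
    dDW (fun f hf hf1 => (dWV f hf hf1).symm)
  have cWV := commute_of_disjoint h.pq.symm h.qs h.rs h.elemF h.pgW h.pgV h.pgD h.rankD.ne_bot h.WV h.FW h.FV h.FD
    (fun f hf hf1 => (dDW f hf hf1).symm) (fun f hf hf1 => (dDV f hf hf1).symm)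
  obtain ⟨a, ha, hao⟩ := exists_orderOf h.pgD h.rankD.ne_bot
  exact hS.commuting_false h.hq h.hp h.hr h.pq.symm h.pr h.qr h.pgW h.pgV h.rankW.ne_bot h.neV cWV hao
    (cDW a ha) (cDV a ha)

end Cfsg.Agent.H84.FourPrimes
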