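import Mathlib
import Cfsg.Agent.H84.FourPrimes.Cases

set_option autoImplicit false

/-! Involutions of a group acting on two commuting groups. -/

namespace Cfsg.Agent.H84.FourPrimes

variable {G : Type*} [Group G] [Finite G] {σ : Set ℕ}

theorem eq_of_mem_sup_involutions {z e a : G} (hz : orderOf z = 2) (he : orderOf e = 2) (hze : Commute z e)
    (ha : a ∈ Subgroup.zpowers z ⊔ Subgroup.zpowers e) : a = 1 ∨ a = z ∨ a = e ∨ a = z * e := by
  have hcomm : Subgroup.zpowers e ≤ Subgroup.normalizer (Subgroup.zpowers z : Set G) :=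
    Subgroup.zpowers_le.mpr (Subgroup.centralizer_le_normalizer _ (Subgroup.mem_centralizer_iff.mpr fun x hx => by
      obtain ⟨n, rfl⟩ := Subgroup.mem_zpowers_iff.mp hx
      exact (hze.zpow_left n).eq))
  have ha' : a ∈ ((Subgroup.zpowers z ⊔ Subgroup.zpowers e : Subgroup G) : Set G) := ha
  rw [Subgroup.coe_mul_of_right_le_normalizer_left _ _ hcomm] at ha'
  obtain ⟨u, hu, v, hv, rfl⟩ := ha'
  have key : ∀ {g x : G}, orderOf g = 2 → x ∈ Subgroup.zpowers g → x = 1 ∨ x = g := by
    intro g x hg hx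
    classical
    obtain ⟨n, hn, rfl⟩ := Finset.mem_image.mp (mem_zpowers_iff_mem_range_orderOf.mp hx)
    rw [hg, Finset.mem_range] at hn
    interval_cases n <;> simp
  rcases key hz hu with rfl | rfl <;> rcases key he hv with rfl | rfl <;> simp

/-- An involution of a group acting on commuting `V` and `W` with a central fixed-point-free involution
is central. -/
theorem Setting.involution_commute (hS : Setting G σ) {p q : ℕ} [hp : Fact p.Prime] [hq : Fact q.Prime]
    (hpσ : p ∈ σ) (hqσ : q ∈ σ) (h2σ : 2 ∈ σ) (hpq : p ≠ q) (hp2 : p ≠ 2) (hq2 : q ≠ 2)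
    {U V W : Subgroup G} (hV : IsPGroup p V) (hW : IsPGroup q W) (hVne : V ≠ ⊥) (hWne : W ≠ ⊥)
    (hUV : U ≤ Subgroup.normalizer (V : Set G)) (hUW : U ≤ Subgroup.normalizer (W : Set G))
    (hVW : ∀ v ∈ V, ∀ w ∈ W, Commute v w)
    (hUσ : ∀ l : ℕ, l.Prime → l ∣ Nat.card U → l ∈ σ ∧ l ≠ p ∧ l ≠ q)
    {z : G} (hzU : z ∈ U) (hz : orderOf z = 2) (hzc : ∀ g ∈ U, Commute z g)
    (hzV : V ⊓ Subgroup.centralizer ({z} : Set G) = ⊥) (hzW : W ⊓ Subgroup.centralizer ({z} : Set G) = ⊥)
    {e : G} (heU : e ∈ U) (he : orderOf e = 2) : ∀ g ∈ U, Commute e g := by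
  haveI : Fact (Nat.Prime 2) := ⟨Nat.prime_two⟩
  by_cases hez : e = z
  · exact hez ▸ hzc
  have hze := hzc e heU
  have hnot : e ∉ Subgroup.zpowers z := by
    intro hmem
    classical
    obtain ⟨n, hn, hn'⟩ := Finset.mem_image.mp (mem_zpowers_iff_mem_range_orderOf.mp hmem)
    rw [hz, Finset.mem_range] at hn
    interval_cases n
    · exact ne_one_of_orderOf Nat.prime_two he (by simpa using hn'.symm)
    · exact hez (by simpa using hn'.symm)
  obtain ⟨E, hE, hEX⟩ := hasE_of_commute (X := Subgroup.zpowers z ⊔ Subgroup.zpowers e)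
    (Subgroup.mem_sup_left (Subgroup.mem_zpowers z)) (Subgroup.mem_sup_right (Subgroup.mem_zpowers e)) hz he hze hnot
  have hEU : E ≤ U := hEX.trans (sup_le (Subgroup.zpowers_le.mpr hzU) (Subgroup.zpowers_le.mpr heU))
  have hzeo : orderOf (z * e) = 2 := by
    refine orderOf_eq_prime (p := 2) ?_ fun h => hez ?_
    · have h1 : z ^ 2 = 1 := by rw [← hz]; exact pow_orderOf_eq_one z
      have h2 : e ^ 2 = 1 := by rw [← he]; exact pow_orderOf_eq_one e
      rw [hze.mul_pow, h1, h2, one_mul]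
    · have h1 : e = z⁻¹ := eq_inv_of_mul_eq_one_right h
      rw [h1]
      exact inv_eq_of_mul_eq_one_right (by rw [← sq, ← hz, pow_orderOf_eq_one])
  haveI := hE.isMulCommutative
  have dich : ∀ {i : ℕ} [Fact i.Prime] (Y : Subgroup G), i ≠ 2 → IsPGroup i Y → Y ≠ ⊥ →
      E ≤ Subgroup.normalizer (Y : Set G) → Y ⊓ Subgroup.centralizer ({z} : Set G) = ⊥ →
      (Y ⊓ Subgroup.centralizer ({e} : Set G) ≠ ⊥ ∨ Y ⊓ Subgroup.centralizer ({z * e} : Set G) ≠ ⊥) ∧
        (Y ⊓ Subgroup.centralizer ({z * e} : Set G) = ⊥ → Y ≤ Subgroup.centralizer ({e} : Set G)) ∧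
        (Y ⊓ Subgroup.centralizer ({e} : Set G) = ⊥ → Y ≤ Subgroup.centralizer ({z * e} : Set G)) := by
    intro i _ Y hi hY hne hEY hzY
    refine ⟨?_, fun h0 => ?_, fun h0 => ?_⟩
    · obtain ⟨a, ha, ha1, haY⟩ := exists_fix hi.symm hE hEY hY hne
      rcases eq_of_mem_sup_involutions hz he hze (hEX ha) with rfl | rfl | rfl | rfl
      · exact absurd rfl ha1
      · exact absurd hzY haY
      · exact Or.inl haY
      · exact Or.inr haY
    all_goals
      refine H20.le_of_centralizers_le hE.not_isCyclic hEY (coprime_of_primes hi.symm hE.isPGroup hY) ?_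
      intro a ha ha1
      rcases eq_of_mem_sup_involutions hz he hze (hEX ha) with rfl | rfl | rfl | rfl
      · exact absurd rfl ha1
      · rw [hzY]; exact bot_le
      · first | exact inf_le_right | (rw [h0]; exact bot_le)
      · first | exact inf_le_right | (rw [h0]; exact bot_le)
  obtain ⟨dV, dVe, dVze⟩ := dich V hp2 hV hVne (hEU.trans hUV) hzV
  obtain ⟨dW, dWe, dWze⟩ := dich W hq2 hW hWne (hEU.trans hUW) hzW
  have notBoth : ∀ y : G, orderOf y = 2 → V ⊓ Subgroup.centralizer ({y} : Set G) ≠ ⊥ →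
      W ⊓ Subgroup.centralizer ({y} : Set G) = ⊥ := by
    intro y hy hVy
    by_contra hWy
    obtain ⟨v, hv, hvo⟩ := exists_orderOf (hV.to_le inf_le_left) hVy
    obtain ⟨w, hw, hwo⟩ := exists_orderOf (hW.to_le inf_le_left) hWy
    exact hS.noTriple v w y (hvo ▸ hpσ) (hwo ▸ hqσ) (hy ▸ h2σ) (by rwa [hvo, hwo]) (by rwa [hwo, hy])
      (by rwa [hvo, hy]) (hVW v (mem_fix.mp hv).1 w (mem_fix.mp hw).1) (mem_fix.mp hw).2 (mem_fix.mp hv).2
  intro g hg
  -- `g e g⁻¹ e` centralises `V` and `W`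
  have hc : ∀ {Y : Subgroup G}, U ≤ Subgroup.normalizer (Y : Set G) →
      (Y ≤ Subgroup.centralizer ({e} : Set G) ∨ Y ≤ Subgroup.centralizer ({z * e} : Set G)) →
      ∀ y ∈ Y, Commute (g * e * g⁻¹ * e) y := by
    intro Y hUY hor y hy
    have hgy : g⁻¹ * y * g ∈ Y := (Subgroup.mem_normalizer_iff''.mp (hUY hg) y).mp hy
    rcases hor with h | h
    · have h1 : Commute e y := (Subgroup.mem_centralizer_singleton_iff.mp (h hy)).symm
      have h2 : Commute e (g⁻¹ * y * g) := (Subgroup.mem_centralizer_singleton_iff.mp (h hgy)).symm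
      have h3 : Commute (g * e * g⁻¹) y := by simpa [mul_assoc] using h2.map (MulAut.conj g).toMonoidHom
      exact h3.mul_left h1
    · have h1 : Commute (z * e) y := (Subgroup.mem_centralizer_singleton_iff.mp (h hy)).symm
      have h2 : Commute (z * e) (g⁻¹ * y * g) := (Subgroup.mem_centralizer_singleton_iff.mp (h hgy)).symm
      have h3 : Commute (g * (z * e) * g⁻¹) y := by simpa [mul_assoc] using h2.map (MulAut.conj g).toMonoidHom
      have h4 := h3.mul_left h1
      have hzz : z * z = 1 := by rw [← sq, ← hz, pow_orderOf_eq_one]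
      have : g * (z * e) * g⁻¹ * (z * e) = g * e * g⁻¹ * e := by
        have hzge : Commute z (g * e * g⁻¹) := hzc _ (U.mul_mem (U.mul_mem hg heU) (U.inv_mem hg))
        calc g * (z * e) * g⁻¹ * (z * e) = z * (g * e * g⁻¹) * (z * e) := by
              rw [← mul_assoc g z, ← (hzc g hg).eq]; group
          _ = (g * e * g⁻¹) * (z * z) * e := by rw [hzge.eq]; group
          _ = g * e * g⁻¹ * e := by rw [hzz, mul_one]
      rwa [this] at h4
  have hor : (V ≤ Subgroup.centralizer ({e} : Set G) ∧ W ≤ Subgroup.centralizer ({z * e} : Set G)) ∨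
      (V ≤ Subgroup.centralizer ({z * e} : Set G) ∧ W ≤ Subgroup.centralizer ({e} : Set G)) := by
    rcases dV with h | h
    · have hWe := notBoth e he h
      have hWze := dW.resolve_left (fun k => k hWe)
      refine Or.inl ⟨dVe (by_contra fun k => hWze (notBoth (z * e) hzeo k)), dWze hWe⟩
    · have hWze := notBoth (z * e) hzeo h
      have hWe := dW.resolve_right (fun k => k hWze)
      refine Or.inr ⟨dVze (by_contra fun k => hWe (notBoth e he k)), dWe hWze⟩
  have hcV := hc hUV (hor.imp (fun h => h.1) (fun h => h.1))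
  have hcW := hc hUW (by rcases hor with h | h; exacts [Or.inr h.2, Or.inl h.2])
  by_contra hne
  set c := g * e * g⁻¹ * e with hcdef
  have hc1 : c ≠ 1 := by
    intro h1
    apply hne
    have h2 : g * e * g⁻¹ = e := by
      rw [eq_inv_of_mul_eq_one_left h1]
      exact inv_eq_of_mul_eq_one_right (by rw [← sq, ← he, pow_orderOf_eq_one])
    exact (mul_inv_eq_iff_eq_mul.mp h2).symm
  obtain ⟨l, hl, hld⟩ := Nat.exists_prime_and_dvd (mt orderOf_eq_one_iff.mp hc1)
  have hcU : c ∈ U := U.mul_mem (U.mul_mem (U.mul_mem hg heU) (U.inv_mem hg)) heU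
  obtain ⟨hlσ, hlp, hlq⟩ := hUσ l hl (hld.trans (Subgroup.orderOf_dvd_natCard U hcU))
  haveI : Fact l.Prime := ⟨hl⟩
  have hdo : orderOf (c ^ (orderOf c / l)) = l := orderOf_pow_orderOf_div (orderOf_pos c).ne' hld
  exact hS.commuting_false hpσ hqσ hlσ hpq (Ne.symm hlq) (Ne.symm hlp) hV hW hVne hWne hVW hdo
    (fun v hv => (hcV v hv).pow_left _) (fun w hw => (hcW w hw).pow_left _)

end Cfsg.Agent.H84.FourPrimes
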