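import Mathlib
import Cfsg.Agent.H24.SmallRank
import Cfsg.Agent.H84.FourPrimes.Chain
import Cfsg.Agent.H84.FourPrimes.Involution

set_option autoImplicit false

/-! The case of a fixed point on the bottom group of the chain, and the conclusion. -/

open scoped commutatorElement

namespace Cfsg.Agent.H84.FourPrimes

variable {G : Type*} [Group G] [Finite G] {σ : Set ℕ}

/-- In a `p`-group, `p` odd, a noncyclic group has a normal elementary subgroup `A` of order `p²`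
all of whose commutators are central of order dividing `p`. -/
theorem exists_normal_two_central {r : ℕ} [hr : Fact r.Prime] (hr2 : r ≠ 2) {D : Subgroup G} (hD : IsPGroup r D)
    (h : HasE r D) : ∃ A : Subgroup G, IsE r A ∧ A ≤ D ∧ D ≤ Subgroup.normalizer (A : Set G) ∧
      ∀ a ∈ A, ∀ d ∈ D, ∀ d' ∈ D, Commute ⁅a, d⁆ d' := by
  have hnc : ¬ IsCyclic D := by
    intro hc
    obtain ⟨E, hE, hED⟩ := h
    exact hE.not_isCyclic (Subgroup.isCyclic_of_le hED)
  obtain ⟨A, hAn, hAc, hAe, hAcard⟩ := H24.exists_normal_elementary_two D r hr2 hD hnc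
  have hAne : A ≠ ⊥ := by
    intro e
    rw [e, Subgroup.card_bot] at hAcard
    nlinarith [hr.out.two_le]
  set N := ⁅A, (⊤ : Subgroup D)⁆
  have hN : Nat.card N ≤ r := by
    have := H24.commutator_top_lt hD (N := A) hAne
    rw [hAcard, sq] at this
    exact Nat.le_of_mul_le_mul_left this hr.out.pos
  have hNc : ∀ n ∈ N, ∀ d : D, n * d = d * n := by
    by_cases hN1 : N = ⊥
    · intro n hn d
      rw [hN1, Subgroup.mem_bot] at hn
      simp [hn]
    have := H24.commutator_top_lt hD (N := N) hN1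
    have h1 : Nat.card ↥⁅N, (⊤ : Subgroup D)⁆ ≤ 1 :=
      Nat.le_of_mul_le_mul_left (by rw [mul_one]; exact this.trans hN) hr.out.pos
    have h2 : ⁅N, (⊤ : Subgroup D)⁆ = ⊥ := Subgroup.card_eq_one.mp (le_antisymm h1 Nat.card_pos)
    intro n hn d
    exact commutatorElement_eq_one_iff_mul_comm.mp (Subgroup.mem_bot.mp (h2.le
      (Subgroup.commutator_mem_commutator hn (Subgroup.mem_top d))))
  refine ⟨A.map D.subtype, ⟨?_, ?_, ?_⟩, Subgroup.map_subtype_le A, ?_, ?_⟩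
  · rintro _ ⟨a, ha, rfl⟩ _ ⟨b, hb, rfl⟩
    exact congrArg Subtype.val (congrArg Subtype.val (hAc.is_comm.comm ⟨a, ha⟩ ⟨b, hb⟩))
  · rintro _ ⟨a, ha, rfl⟩
    rw [← map_pow, hAe a ha, map_one]
  · rw [Subgroup.card_map_of_injective D.subtype_injective, hAcard]
  · intro d hd
    rw [Subgroup.mem_normalizer_iff]
    intro x
    constructor
    · rintro ⟨a, ha, rfl⟩
      exact ⟨_, hAn.conj_mem a ha ⟨d, hd⟩, rfl⟩
    · rintro ⟨a, ha, e⟩
      refine ⟨_, hAn.conj_mem a ha (⟨d, hd⟩⁻¹), ?_⟩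
      show (d⁻¹ * (a : G) * d⁻¹⁻¹) = x
      rw [show (a : G) = d * x * d⁻¹ from e]
      group
  · rintro _ ⟨a, ha, rfl⟩ d hd d' hd'
    have hmem := Subgroup.commutator_mem_commutator ha (Subgroup.mem_top (⟨d, hd⟩ : D))
    exact congrArg Subtype.val (hNc _ hmem ⟨d', hd'⟩)

variable {p q r s : ℕ} [hpf : Fact p.Prime] [hqf : Fact q.Prime] [hrf : Fact r.Prime] [hsf : Fact s.Prime]
  {V W D F : Subgroup G}

/-- The case `C_D(F) ≠ 1`. -/
theorem Chain.false_of_D (h : Chain σ p q r s V W D F) (hD : D ⊓ Subgroup.centralizer (F : Set G) ≠ ⊥)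
    (hW : W ⊓ Subgroup.centralizer (F : Set G) = ⊥) (hV : V ⊓ Subgroup.centralizer (F : Set G) = ⊥) : False := by
  have hS := h.setting
  -- an element of order `r` fixed by `F` is fixed-point-free on `V` and on `W`
  have hfpf : ∀ a ∈ D ⊓ Subgroup.centralizer (F : Set G), orderOf a = r →
      V ⊓ Subgroup.centralizer ({a} : Set G) = ⊥ ∧ W ⊓ Subgroup.centralizer ({a} : Set G) = ⊥ := by
    intro a ha hao
    have hc : ∀ e ∈ F, Commute a e := fun e he =>
      (Subgroup.mem_centralizer_iff.mp (Subgroup.mem_inf.mp ha).2 e he).symm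
    exact ⟨hS.rank_fpf h.hr h.hs h.hp h.rs h.ps.symm h.pr.symm h.elemF hao hc h.FV h.pgV,
      hS.rank_fpf h.hr h.hs h.hq h.rs h.qs.symm h.qr.symm h.elemF hao hc h.FW h.pgW⟩
  obtain ⟨a₀, ha₀, ha₀o⟩ := exists_orderOf (h.pgD.to_le inf_le_left) hD
  have ha₀D := (Subgroup.mem_inf.mp ha₀).1
  have hVW : ∀ v ∈ V, ∀ w ∈ W, Commute v w := fun v hv w hw =>
    (commute_of_fpf (s := r) h.pq.symm h.pgW h.pgV h.WV ha₀o (h.DW ha₀D) (h.DV ha₀D) (hfpf a₀ ha₀ ha₀o).2
      (hfpf a₀ ha₀ ha₀o).1 w hw v hv).symm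
  -- central elements of order dividing `r`
  let Z := D ⊓ Subgroup.centralizer (D : Set G)
  have hZcomm : ∀ x ∈ Z, ∀ y ∈ Z, Commute x y := fun x hx y hy =>
    (Subgroup.mem_centralizer_iff.mp (Subgroup.mem_inf.mp hy).2 x (Subgroup.mem_inf.mp hx).1)
  let Z₁ := H24.powSubgroup Z r fun x hx y hy hxr hyr => by rw [(hZcomm x hx y hy).mul_pow, hxr, hyr, one_mul]
  have hZ₁D : Z₁ ≤ D := fun x hx => (Subgroup.mem_inf.mp hx.1).1
  haveI hZ₁c : IsMulCommutative Z₁ := ⟨⟨fun x y => Subtype.ext (hZcomm x x.2.1 y y.2.1)⟩⟩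
  have hFZ₁ : F ≤ Subgroup.normalizer (Z₁ : Set G) := by
    have hFZ : F ≤ Subgroup.normalizer (Z : Set G) :=
      H20.le_normalizer_inf h.FD (H20.le_normalizer_centralizer h.FD)
    rw [Subgroup.le_normalizer_iff]
    intro f hf x hx
    exact ⟨(Subgroup.mem_normalizer_iff.mp (hFZ hf) x).mp hx.1, by rw [conj_pow, hx.2]; group⟩
  haveI := h.elemF.isMulCommutative
  have hZ₁F : Z₁ ≤ Subgroup.centralizer (F : Set G) := by
    refine H20.le_of_centralizers_le h.elemF.not_isCyclic hFZ₁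
      (coprime_of_primes h.rs.symm h.elemF.isPGroup (h.pgD.to_le hZ₁D)) ?_
    intro f hf hf1
    set B := Z₁ ⊓ Subgroup.centralizer ({f} : Set G) with hB
    intro b hb
    by_cases hb1 : b = 1
    · subst hb1; exact Subgroup.one_mem _
    have hbo : orderOf b = r := orderOf_eq_prime (mem_fix.mp hb).1.2 hb1
    have hbDf : b ∈ D ⊓ Subgroup.centralizer ({f} : Set G) :=
      Subgroup.mem_inf.mpr ⟨hZ₁D (Subgroup.mem_inf.mp hb).1, (Subgroup.mem_inf.mp hb).2⟩
    by_cases hWf : W ⊓ Subgroup.centralizer ({f} : Set G) ≠ ⊥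
    · exact hS.fix_mem_centralizer h.hr h.hq h.hs h.qr.symm h.qs h.rs h.elemF h.pgD h.pgW h.DW h.FD h.FW hf hf1
        hWf hW hbDf hbo
    by_cases hVf : V ⊓ Subgroup.centralizer ({f} : Set G) ≠ ⊥
    · exact hS.fix_mem_centralizer h.hr h.hp h.hs h.pr.symm h.ps h.rs h.elemF h.pgD h.pgV h.DV h.FD h.FV hf hf1
        hVf hV hbDf hbo
    have outside : ∀ {g : G} {Y : Subgroup G}, g ≠ 1 → Y ⊓ Subgroup.centralizer ({g} : Set G) ≠ ⊥ →
        ¬ Y ⊓ Subgroup.centralizer ({f} : Set G) ≠ ⊥ → g ∉ Subgroup.zpowers f := by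
      intro g Y hg1 hYg hYf hgf
      apply hYf
      refine ne_bot_of_le_ne_bot hYg (inf_le_inf_left Y fun x hx => ?_)
      obtain ⟨n, hn⟩ := Subgroup.mem_zpowers_iff.mp
        (show f ∈ Subgroup.zpowers g from zpowers_eq_of_mem (h.elemF.orderOf_eq hf hf1) hgf hg1 ▸ Subgroup.mem_zpowers f)
      rw [Subgroup.mem_centralizer_singleton_iff, ← hn]
      exact ((show Commute x g from Subgroup.mem_centralizer_singleton_iff.mp hx).zpow_right n).eq
    obtain ⟨g, hg, hg1, hVg⟩ := exists_fix h.ps.symm h.elemF h.FV h.pgV h.neV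
    obtain ⟨g', hg', hg'1, hWg'⟩ := exists_fix h.qs.symm h.elemF h.FW h.pgW h.rankW.ne_bot
    have hgf := outside hg1 hVg hVf
    have hg'f := outside hg'1 hWg' hWf
    have hWg : W ⊓ Subgroup.centralizer ({g} : Set G) = ⊥ :=
      (hS.disjoint_fix h.hq h.hp h.hs h.pq.symm h.ps h.qs h.elemF h.pgW h.pgV h.WV h.FW h.FV hW hV hg hg1).resolve_right hVg
    have hVg' : V ⊓ Subgroup.centralizer ({g'} : Set G) = ⊥ :=
      (hS.disjoint_fix h.hq h.hp h.hs h.pq.symm h.ps h.qs h.elemF h.pgW h.pgV h.WV h.FW h.FV hW hV hg' hg'1).resolve_left hWg'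
    have hFB : F ≤ Subgroup.normalizer (B : Set G) :=
      le_normalizer_fix hFZ₁ fun x hx => h.elemF.comm x hx f hf
    have hgB : Subgroup.zpowers g ≤ Subgroup.normalizer (B : Set G) := Subgroup.zpowers_le.mpr (hFB hg)
    haveI : IsMulCommutative B :=
      ⟨⟨fun x y => Subtype.ext (hZcomm x (Subgroup.mem_inf.mp x.2).1.1 y (Subgroup.mem_inf.mp y.2).1.1)⟩⟩
    set A := ⁅B, Subgroup.zpowers g⁆ with hA
    have hAB : A ≤ B := H20.commutator_le_of_le_normalizer hgB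
    have hA0 : (B ⊓ Subgroup.centralizer ((Subgroup.zpowers g : Subgroup G) : Set G)) ⊓ A = ⊥ :=
      H20.centralizer_inf_commutator_eq_bot hgB (coprime_of_primes h.rs.symm
        (h.elemF.isPGroup.to_le (Subgroup.zpowers_le.mpr hg)) (h.pgD.to_le (inf_le_left.trans hZ₁D)))
    have hAg : A ⊓ Subgroup.centralizer ({g} : Set G) = ⊥ := by
      rw [eq_bot_iff, ← hA0]
      intro x hx
      obtain ⟨hxA, hxg⟩ := mem_fix.mp hx
      refine Subgroup.mem_inf.mpr ⟨Subgroup.mem_inf.mpr ⟨hAB hxA, Subgroup.mem_centralizer_iff.mpr fun y hy => ?_⟩, hxA⟩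
      obtain ⟨n, rfl⟩ := Subgroup.mem_zpowers_iff.mp hy
      exact (hxg.zpow_right n).eq.symm
    have hAg' : A ⊓ Subgroup.centralizer ({g'} : Set G) = ⊥ := by
      rw [eq_bot_iff, ← hAg]
      intro x hx
      obtain ⟨hxA, hxg'⟩ := mem_fix.mp hx
      refine mem_fix.mpr ⟨hxA, ?_⟩
      exact (Subgroup.mem_centralizer_iff.mp
        (h.elemF.le_centralizer hf hf1 hg' hg'f (mem_fix.mp (hAB hxA)).2 hxg') g hg).symm
    have hFA : F ≤ Subgroup.normalizer (A : Set G) := by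
      intro x hx
      rw [Subgroup.mem_normalizer_iff_map_conj_eq, hA, Subgroup.map_commutator,
        Subgroup.mem_normalizer_iff_map_conj_eq.mp (hFB hx), MonoidHom.map_zpowers]
      congr 2
      show x * g * x⁻¹ = g
      rw [h.elemF.comm x hx g hg, mul_inv_cancel_right]
    have hAp : IsPGroup r A := h.pgD.to_le (hAB.trans (inf_le_left.trans hZ₁D))
    have hAN : A ≤ D := hAB.trans (inf_le_left.trans hZ₁D)
    have cW := commute_of_fpf (s := s) h.qr.symm hAp h.pgW (hAN.trans h.DW) (h.elemF.orderOf_eq hg hg1) (hFA hg)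
      (h.FW hg) hAg hWg
    have cV := commute_of_fpf (s := s) h.pr.symm hAp h.pgV (hAN.trans h.DV) (h.elemF.orderOf_eq hg' hg'1) (hFA hg')
      (h.FV hg') hAg' hVg'
    have hA1 : A = ⊥ := by
      by_contra hne
      obtain ⟨x, hx, hxo⟩ := exists_orderOf hAp hne
      exact hS.commuting_false h.hp h.hq h.hr h.pq h.qr h.pr h.pgV h.pgW h.neV h.rankW.ne_bot hVW hxo (cV x hx) (cW x hx)
    have hbg : Commute b g := by
      rw [← commutatorElement_eq_one_iff_commute]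
      exact Subgroup.mem_bot.mp (hA1.le (Subgroup.commutator_mem_commutator hb (Subgroup.mem_zpowers g)))
    exact h.elemF.le_centralizer hf hf1 hg hgf (mem_fix.mp hb).2 hbg
  -- `z`
  have hZ₁u : Uniq r Z₁ := (uniq_or_hasE (h.pgD.to_le hZ₁D)).resolve_right fun ⟨E, hE, hEZ⟩ =>
    h.neV (hS.rank_rank h.hr h.hs h.hp h.rs h.ps.symm h.pr.symm hE h.elemF
      (fun e he e' he' => (Subgroup.mem_centralizer_iff.mp (hZ₁F (hEZ he)) e' he').symm)
      ((hEZ.trans hZ₁D).trans h.DV) h.FV h.pgV)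
  haveI : Nontrivial D := D.nontrivial_iff_ne_bot.mpr h.rankD.ne_bot
  haveI := h.pgD.center_nontrivial
  obtain ⟨z, hz, hzo⟩ := exists_orderOf (h.pgD.to_le (Subgroup.map_subtype_le (Subgroup.center D)))
    (fun e => (Subgroup.nontrivial_iff_ne_bot _).mp inferInstance
      ((Subgroup.map_eq_bot_iff_of_injective _ D.subtype_injective).mp e))
  obtain ⟨⟨z, hzD⟩, hzc, rfl⟩ := hz
  have hzZ : z ∈ Z₁ := ⟨Subgroup.mem_inf.mpr ⟨hzD, Subgroup.mem_centralizer_iff.mpr fun x hx =>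
    congrArg Subtype.val (Subgroup.mem_center_iff.mp hzc ⟨x, hx⟩)⟩, by
      show z ^ r = 1
      rw [← hzo]; exact pow_orderOf_eq_one z⟩
  have hzo' : orderOf z = r := hzo
  obtain ⟨hzV, hzW⟩ := hfpf z (Subgroup.mem_inf.mpr ⟨hzD, hZ₁F hzZ⟩) hzo'
  have hzcomm : ∀ x ∈ D, Commute z x := fun x hx =>
    (congrArg Subtype.val (Subgroup.mem_center_iff.mp hzc ⟨x, hx⟩)).symm
  have central_mem : ∀ x ∈ D, (∀ d ∈ D, Commute x d) → x ^ r = 1 → x ∈ Subgroup.zpowers z := by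
    intro x hx hc hxr
    by_cases hx1 : x = 1
    · subst hx1; exact Subgroup.one_mem _
    exact hZ₁u z hzZ x ⟨Subgroup.mem_inf.mpr ⟨hx, Subgroup.mem_centralizer_iff.mpr fun d hd => (hc d hd).symm.eq⟩, hxr⟩
      hzo' (orderOf_eq_prime hxr hx1)
  by_cases hr2 : r = 2
  · subst hr2
    obtain ⟨E, hE, hED⟩ := h.rankD
    have hEy : ∃ y ∈ E, y ∉ Subgroup.zpowers z := by
      by_contra hcon
      push Not at hcon
      have := Subgroup.card_le_of_le (show E ≤ Subgroup.zpowers z from hcon)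
      rw [hE.card, Nat.card_zpowers, hzo'] at this
      norm_num at this
    obtain ⟨y, hy, hyz⟩ := hEy
    have hy1 : y ≠ 1 := fun e => hyz (e ▸ Subgroup.one_mem _)
    have hyc := hS.involution_commute h.hp h.hq h.hr h.pq h.pr h.qr h.pgV h.pgW h.neV h.rankW.ne_bot h.DV h.DW hVW
      (fun l hl hld => by
        obtain ⟨k, hk⟩ := h.pgD.exists_card_eq
        rw [hk] at hld
        have := (Nat.prime_dvd_prime_iff_eq hl Nat.prime_two).mp (hl.dvd_of_dvd_pow hld)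
        subst this
        exact ⟨h.hr, h.pr.symm, h.qr.symm⟩)
      hzD hzo' hzcomm hzV hzW (hED hy) (hE.orderOf_eq hy hy1)
    exact hyz (central_mem y (hED hy) hyc (hE.pow_eq y hy))
  obtain ⟨A, hA, hAD, hDA, hAcent⟩ := exists_normal_two_central hr2 h.pgD h.rankD
  have hcomm_mem : ∀ a ∈ A, ∀ d ∈ D, ⁅a, d⁆ ∈ A := fun a ha d hd => by
    rw [commutatorElement_def, show a * d * a⁻¹ * d⁻¹ = a * (d * a⁻¹ * d⁻¹) by group]
    exact A.mul_mem ha ((Subgroup.mem_normalizer_iff.mp (hDA hd) _).mp (A.inv_mem ha))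
  have hA1 : ∃ a ∈ A, a ∉ Subgroup.zpowers z := by
    by_contra hcon
    push Not at hcon
    have := Subgroup.card_le_of_le (show A ≤ Subgroup.zpowers z from hcon)
    rw [hA.card, Nat.card_zpowers, hzo'] at this
    nlinarith [hrf.out.two_le]
  obtain ⟨e, he, hez⟩ := hA1
  have he1 : e ≠ 1 := fun h1 => hez (h1 ▸ Subgroup.one_mem _)
  obtain ⟨d, hd, hed⟩ : ∃ d ∈ D, ¬ Commute e d := by
    by_contra hcon
    push Not at hcon
    exact hez (central_mem e (hAD he) hcon (hA.pow_eq e he))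
  set c := ⁅e, d⁆ with hc
  have hcA : c ∈ A := hcomm_mem e he d hd
  have hcD : c ∈ D := hAD hcA
  have hc1 : c ≠ 1 := fun h1 => hed (commutatorElement_eq_one_iff_commute.mp h1)
  have hcz : c ∈ Subgroup.zpowers z := central_mem c hcD (fun x hx => hAcent e he d hd x hx) (hA.pow_eq c hcA)
  have hzc' : Subgroup.zpowers c = Subgroup.zpowers z := zpowers_eq_of_mem hzo' hcz hc1
  have hzA : z ∈ A := Subgroup.zpowers_le.mpr hcA (hzc' ▸ Subgroup.mem_zpowers z)
  have hAzu : Subgroup.zpowers z ⊔ Subgroup.zpowers e⁻¹ = A := by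
    rw [Subgroup.zpowers_inv]
    exact hA.eq_sup hzA (ne_one_of_orderOf hrf.out hzo') he hez
  -- conjugates of `e⁻¹`
  have hconj : ∀ n : ℕ, d ^ n * e⁻¹ * (d ^ n)⁻¹ = e⁻¹ * c ^ n := by
    intro n
    induction n with
    | zero => simp
    | succ n ih =>
      have hdc : Commute c d := hAcent e he d hd d hd
      have h1 : d * e⁻¹ * d⁻¹ = e⁻¹ * c := by rw [hc, commutatorElement_def]; group
      calc d ^ (n + 1) * e⁻¹ * (d ^ (n + 1))⁻¹ = d * (d ^ n * e⁻¹ * (d ^ n)⁻¹) * d⁻¹ := by rw [pow_succ']; group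
        _ = d * e⁻¹ * d⁻¹ * (d * c ^ n * d⁻¹) := by rw [ih]; group
        _ = e⁻¹ * c ^ (n + 1) := by
          rw [h1, (hdc.pow_left n).symm.eq, mul_inv_cancel_right, pow_succ', mul_assoc]
  set u := e⁻¹ with hu
  have fix_u : ∀ {i : ℕ} [Fact i.Prime] (Y : Subgroup G), i ≠ r → IsPGroup i Y → Y ≠ ⊥ →
      D ≤ Subgroup.normalizer (Y : Set G) → Y ⊓ Subgroup.centralizer ({z} : Set G) = ⊥ →
      Y ⊓ Subgroup.centralizer ({u} : Set G) ≠ ⊥ := by
    intro i _ Y hir hY hne hDY hzY hu0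
    obtain ⟨x, hx, hx1, hxY⟩ := exists_fix hir.symm hA (hAD.trans hDY) hY hne
    obtain ⟨v, hv, hvo⟩ := exists_orderOf (hY.to_le inf_le_left) hxY
    obtain ⟨hvY, hvx⟩ := mem_fix.mp hv
    have hxm : x ∈ ((Subgroup.zpowers z ⊔ Subgroup.zpowers u : Subgroup G) : Set G) := hAzu.ge hx
    rw [Subgroup.coe_mul_of_right_le_normalizer_left _ _ (Subgroup.zpowers_le.mpr
      (Subgroup.centralizer_le_normalizer _ (Subgroup.mem_centralizer_iff.mpr fun y hy => by
        obtain ⟨n, rfl⟩ := Subgroup.mem_zpowers_iff.mp hy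
        exact ((hzcomm u (hAD (A.inv_mem he))).zpow_left n).eq)))] at hxm
    obtain ⟨_, ⟨i₁, rfl⟩, _, ⟨k, rfl⟩, hprod⟩ := hxm
    have hprod' : z ^ i₁ * u ^ k = x := hprod
    have hzu : Commute z u := hzcomm u (hAD (A.inv_mem he))
    have huo : orderOf u = r := by rw [hu, orderOf_inv]; exact hA.orderOf_eq he he1
    have hk : ¬ (r : ℤ) ∣ k := by
      intro hdvd
      have huk : u ^ k = 1 := orderOf_dvd_iff_zpow_eq_one.mp (by rwa [huo])
      rw [huk, mul_one] at hprod'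
      obtain ⟨m, hm⟩ := Subgroup.mem_zpowers_iff.mp (show z ∈ Subgroup.zpowers x from
        zpowers_eq_of_mem hzo' ⟨i₁, hprod'⟩ hx1 ▸ Subgroup.mem_zpowers z)
      exact ne_one_of_orderOf (Fact.out : i.Prime) hvo
        (Subgroup.mem_bot.mp (hzY.le (mem_fix.mpr ⟨hvY, hm ▸ hvx.zpow_right m⟩)))
    obtain ⟨a, b, hab⟩ := ((Nat.prime_iff_prime_int.mp hrf.out).irreducible.coprime_iff_not_dvd.mpr hk)
    have hxb : x ^ b = z ^ (i₁ * b) * u := by
      rw [← hprod', (hzu.zpow_zpow i₁ k).mul_zpow, ← zpow_mul, ← zpow_mul]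
      congr 1
      have hkb : k * b = 1 + (r : ℤ) * (-a) := by linarith
      have hur : u ^ ((r : ℤ) * (-a)) = 1 := orderOf_dvd_iff_zpow_eq_one.mp (by rw [huo]; exact dvd_mul_right _ _)
      rw [hkb, zpow_add, hur, mul_one, zpow_one]
    classical
    obtain ⟨n, -, hn⟩ := Finset.mem_image.mp (mem_zpowers_iff_mem_range_orderOf.mp
      (show z ^ (i₁ * b) ∈ Subgroup.zpowers c from hzc' ▸ ⟨i₁ * b, rfl⟩))
    have hxb' : x ^ b = d ^ n * u * (d ^ n)⁻¹ := by
      rw [hxb, hconj n, ← show c ^ n = z ^ (i₁ * b) from hn]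
      exact ((hAcent e he d hd u (hAD (A.inv_mem he))).pow_left n).eq
    have hw : Commute ((d ^ n)⁻¹ * v * d ^ n) u := by
      have h1 : Commute v (d ^ n * u * (d ^ n)⁻¹) := hxb' ▸ hvx.zpow_right b
      show (d ^ n)⁻¹ * v * d ^ n * u = u * ((d ^ n)⁻¹ * v * d ^ n)
      calc (d ^ n)⁻¹ * v * d ^ n * u = (d ^ n)⁻¹ * (v * (d ^ n * u * (d ^ n)⁻¹)) * d ^ n := by group
        _ = (d ^ n)⁻¹ * (d ^ n * u * (d ^ n)⁻¹ * v) * d ^ n := by rw [h1.eq]
        _ = u * ((d ^ n)⁻¹ * v * d ^ n) := by group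
    have hwY : (d ^ n)⁻¹ * v * d ^ n ∈ Y := (Subgroup.mem_normalizer_iff''.mp (hDY (D.pow_mem hd n)) v).mp hvY
    have := Subgroup.mem_bot.mp (hu0.le (mem_fix.mpr ⟨hwY, hw⟩))
    exact ne_one_of_orderOf (Fact.out : i.Prime) hvo (conj_eq_one_iff.mp (by simpa using this : (d ^ n)⁻¹ * v * ((d ^ n)⁻¹)⁻¹ = 1))
  have hV' := fix_u V h.pr h.pgV h.neV h.DV hzV
  have hW' := fix_u W h.qr h.pgW h.rankW.ne_bot h.DW hzW
  obtain ⟨v, hv, hvo⟩ := exists_orderOf (h.pgV.to_le inf_le_left) hV'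
  obtain ⟨w, hw, hwo⟩ := exists_orderOf (h.pgW.to_le inf_le_left) hW'
  have huo : orderOf u = r := by rw [hu, orderOf_inv]; exact hA.orderOf_eq he he1
  exact hS.noTriple v w u (hvo ▸ h.hp) (hwo ▸ h.hq) (huo ▸ h.hr) (by rw [hvo, hwo]; exact h.pq)
    (by rw [hwo, huo]; exact h.qr) (by rw [hvo, huo]; exact h.pr) (hVW v (mem_fix.mp hv).1 w (mem_fix.mp hw).1)
    (mem_fix.mp hw).2 (mem_fix.mp hv).2

/-- The chain configuration is impossible. -/
theorem Chain.false (h : Chain σ p q r s V W D F) : False := by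
  have hS := h.setting
  by_cases hD : D ⊓ Subgroup.centralizer (F : Set G) = ⊥
  · by_cases hW : W ⊓ Subgroup.centralizer (F : Set G) = ⊥
    · by_cases hV : V ⊓ Subgroup.centralizer (F : Set G) = ⊥
      · exact h.false_of_none hD hW hV
      · exact h.false_of_V hV hD
    · exact h.false_of_W hW hD
  · refine h.false_of_D hD ?_ ?_
    · by_contra hW
      exact h.neV (hS.eq_bot_of_two_fixed h.hr h.hq h.hp h.hs h.rs h.qs h.ps h.qr.symm h.pq.symm h.pr.symm
        h.elemF h.pgD h.pgW h.pgV h.FV hD hW)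
    · by_contra hV
      exact h.rankW.ne_bot (hS.eq_bot_of_two_fixed h.hr h.hp h.hq h.hs h.rs h.ps h.qs h.pr.symm h.pq h.qr.symm
        h.elemF h.pgD h.pgV h.pgW h.FW hD hV)

end Cfsg.Agent.H84.FourPrimes
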