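import Mathlib
import Cfsg.Agent.H19.Cores
import Cfsg.Agent.H19.Fitting
import Cfsg.Agent.H24.SmallRank
import Cfsg.Agent.H86.ComplementOrderType
import Cfsg.Agent.H84.FourPrimes.Basic

set_option autoImplicit false

/-! Solvable groups all of whose Sylow subgroups have rank two: some core has rank two. -/

open scoped commutatorElement

namespace Cfsg.Agent.H84.FourPrimes

variable {X : Type*} [Group X] [Finite X] [Group.IsSolvable X]

/-- If the `j`-elements centralise all `i`-cores, `i ≠ j`, then `O_j` has rank two with the group. -/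
theorem hasE_pCore {j : ℕ} [hj : Fact j.Prime] (hj2 : j ≠ 2) (hE : HasE j (⊤ : Subgroup X))
    (hcent : ∀ i : ℕ, i.Prime → i ≠ j → ∀ x : X, (∃ k, x ^ j ^ k = 1) → ∀ y ∈ Cfsg.pCore i X, Commute x y) :
    HasE j (Cfsg.pCore j X) := by
  set O := Cfsg.pCore j X with hO
  haveI hOn : O.Normal := H19.pCore_normal j X
  have hOp : IsPGroup j O := H19.pCore_isPGroup j
  refine (uniq_or_hasE hOp).resolve_left fun huniq => ?_
  have hOc : IsCyclic O := by
    by_cases hbot : O = ⊥
    · rw [hbot]; infer_instance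
    obtain ⟨z, hz, hzo⟩ := exists_orderOf hOp hbot
    refine H24.isCyclic_of_pow_eq_one_mem hOp hj2 (A := Subgroup.zpowers (⟨z, hz⟩ : O))
      (by rw [Nat.card_zpowers, Subgroup.orderOf_mk, hzo]) fun x hx => ?_
    by_cases hx1 : x = 1
    · subst hx1; exact Subgroup.one_mem _
    obtain ⟨n, hn⟩ := Subgroup.mem_zpowers_iff.mp (huniq z hz x x.2 hzo
      (by rw [Subgroup.orderOf_coe]; exact orderOf_eq_prime hx hx1))
    exact Subgroup.mem_zpowers_iff.mpr ⟨n, Subtype.ext hn⟩
  set M := ⨆ i : {i : ℕ // i.Prime ∧ i ≠ j}, Cfsg.pCore (i : ℕ) X with hM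
  have hMn : M.Normal := by
    haveI : ∀ i : {i : ℕ // i.Prime ∧ i ≠ j}, (Cfsg.pCore (i : ℕ) X).Normal := fun i => H19.pCore_normal _ X
    rw [hM]
    exact Subgroup.iSup_normal _
  set C₀ := Subgroup.centralizer (M : Set X) with hC₀
  haveI hC₀n : C₀.Normal := inferInstance
  have hjC : ∀ x : X, (∃ k, x ^ j ^ k = 1) → x ∈ C₀ := by
    intro x hx
    have : M ≤ Subgroup.centralizer ({x} : Set X) := iSup_le fun i y hy =>
      Subgroup.mem_centralizer_singleton_iff.mpr (hcent i i.2.1 i.2.2 x hx y hy).symm.eq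
    rw [hC₀, Subgroup.mem_centralizer_iff]
    exact fun y hy => Subgroup.mem_centralizer_singleton_iff.mp (this hy)
  have hOC : O ≤ C₀ := fun x hx => hjC x (by
    obtain ⟨k, hk⟩ := hOp ⟨x, hx⟩
    exact ⟨k, by simpa using congrArg Subtype.val hk⟩)
  obtain ⟨E, hEE, -⟩ := hE
  have hEC : E ≤ C₀ := fun x hx => hjC x ⟨1, by rw [pow_one]; exact hEE.pow_eq x hx⟩
  set F := Cfsg.fittingSubgroup X with hF
  set Z := Subgroup.centralizer (F : Set X) with hZ
  have hFle : F ≤ O ⊔ M := by
    rw [hF, H19.fitting_eq_iSup_pCore]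
    refine iSup_le fun i => ?_
    by_cases hij : (i : ℕ) = j
    · rw [hij]; exact le_sup_left
    · exact le_trans (le_iSup (fun i : {i : ℕ // i.Prime ∧ i ≠ j} => Cfsg.pCore (i : ℕ) X) ⟨i, i.2, hij⟩) le_sup_right
  haveI hFn : F.Normal := H19.fitting_normal X
  -- commutators of `C₀` centralise `F`
  have hcomm : ⁅C₀, C₀⁆ ≤ Z := by
    have h1 : ⁅C₀, C₀⁆ ≤ C₀ := Subgroup.commutator_le_right C₀ C₀
    have h2 : ⁅C₀, C₀⁆ ≤ Subgroup.centralizer (O : Set X) := by
      rw [Subgroup.commutator_le]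
      intro a _ b _
      rw [Subgroup.mem_centralizer_iff]
      intro y hy
      have hab : MulAut.conjNormal (H := O) ⁅a, b⁆ = 1 := by
        haveI := hOc
        have hc : ∀ α β : MulAut O, α * β = β * α := fun α β =>
          (IsCyclic.mulAutMulEquiv O).injective (by rw [map_mul, map_mul, mul_comm])
        rw [map_commutatorElement, commutatorElement_eq_one_iff_mul_comm]
        exact hc _ _
      have h3 : ⁅a, b⁆ * y * ⁅a, b⁆⁻¹ = y := by
        have h4 := congrArg Subtype.val (DFunLike.congr_fun hab (⟨y, hy⟩ : O))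
        rwa [MulAut.conjNormal_apply] at h4
      exact (mul_inv_eq_iff_eq_mul.mp h3).symm
    intro x hx
    rw [hZ, Subgroup.mem_centralizer_iff]
    intro y hy
    have : O ⊔ M ≤ Subgroup.centralizer ({x} : Set X) := sup_le
      (fun u hu => Subgroup.mem_centralizer_singleton_iff.mpr (Subgroup.mem_centralizer_iff.mp (h2 hx) u hu))
      (fun u hu => Subgroup.mem_centralizer_singleton_iff.mpr (Subgroup.mem_centralizer_iff.mp (h1 hx) u hu))
    exact Subgroup.mem_centralizer_singleton_iff.mp (this (hFle hy))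
  obtain ⟨P, hEP⟩ := (hEE.isPGroup.comap_of_injective C₀.subtype C₀.subtype_injective).exists_le_sylow
  have hOP : O.subgroupOf C₀ ≤ (P : Subgroup C₀) :=
    (H19.le_pCore (inferInstance : (O.subgroupOf C₀).Normal)
      (hOp.comap_of_injective C₀.subtype C₀.subtype_injective)).trans (H19.pCore_le_sylow P)
  set N := (P : Subgroup C₀) ⊔ Z.subgroupOf C₀ with hN
  haveI hNn : N.Normal := by
    constructor
    intro x hx g
    rw [show g * x * g⁻¹ = ⁅g, x⁆ * x by rw [commutatorElement_def]; group]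
    refine N.mul_mem (Subgroup.mem_sup_right ?_) hx
    rw [Subgroup.mem_subgroupOf]
    exact hcomm (Subgroup.commutator_mem_commutator g.2 x.2)
  have hNP : N ≤ Subgroup.normalizer ((P : Subgroup C₀) : Set C₀) := by
    refine sup_le Subgroup.le_normalizer fun x hx => ?_
    rw [Subgroup.mem_subgroupOf] at hx
    have hxF : (x : X) ∈ ((O ⊔ M : Subgroup X) : Set X) := hFle (H19.centralizer_fitting_le hx)
    rw [Subgroup.normal_mul] at hxF
    obtain ⟨u, hu, v, hv, huv⟩ := hxF
    have huC : u ∈ C₀ := hOC hu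
    have hvC : v ∈ C₀ := by
      have := C₀.mul_mem (C₀.inv_mem huC) x.2
      rwa [← huv, inv_mul_cancel_left] at this
    have hxe : x = ⟨u, huC⟩ * ⟨v, hvC⟩ := Subtype.ext huv.symm
    rw [hxe]
    refine (Subgroup.normalizer _).mul_mem
      (Subgroup.le_normalizer (hOP (Subgroup.mem_subgroupOf.mpr hu : (⟨u, huC⟩ : C₀) ∈ O.subgroupOf C₀)))
      (Subgroup.centralizer_le_normalizer _ ?_)
    rw [Subgroup.mem_centralizer_iff]
    intro y _
    exact Subtype.ext (Subgroup.mem_centralizer_iff.mp y.2 v hv).symm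
  have hPN : (P : Subgroup C₀) ≤ N := le_sup_left
  haveI : ((P.subtype hPN : Sylow j N) : Subgroup N).Normal := by
    rw [Sylow.coe_subtype]
    exact Subgroup.normal_subgroupOf_of_le_normalizer hNP
  haveI : ((P.subtype hPN : Sylow j N) : Subgroup N).Characteristic := Sylow.characteristic_of_normal _ ‹_›
  haveI hPn : (P : Subgroup C₀).Normal := by
    have := ConjAct.normal_of_characteristic_of_normal (H := N) (K := ((P.subtype hPN : Sylow j N) : Subgroup N))
    rwa [Sylow.coe_subtype, Subgroup.map_subgroupOf_eq_of_le hPN] at this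
  haveI : (P : Subgroup C₀).Characteristic := Sylow.characteristic_of_normal P hPn
  have hle : (P : Subgroup C₀).map C₀.subtype ≤ O :=
    H19.le_pCore (ConjAct.normal_of_characteristic_of_normal (H := C₀) (K := (P : Subgroup C₀))) (P.2.map _)
  have hEO : E ≤ O := fun x hx => hle ⟨⟨x, hEC hx⟩, hEP (Subgroup.mem_subgroupOf.mpr hx), rfl⟩
  haveI := hOc
  exact hEE.not_isCyclic (Subgroup.isCyclic_of_le hEO)

/-- A solvable group with rank two for its largest prime `j ≥ 5` has a core of rank two. -/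
theorem exists_core_hasE {j : ℕ} [hj : Fact j.Prime] (h5 : 5 ≤ j)
    (hmax : ∀ i : ℕ, i.Prime → i ∣ Nat.card X → i ≤ j) (hE : HasE j (⊤ : Subgroup X)) :
    ∃ i : ℕ, i.Prime ∧ HasE i (Cfsg.pCore i X) := by
  by_contra hno
  push Not at hno
  refine hno j hj.out (hasE_pCore (by omega) hE fun i hi hij x hx y hy => ?_)
  haveI := Fact.mk hi
  by_cases hy1 : y = 1
  · subst hy1; exact Commute.one_right x
  haveI : (Cfsg.pCore i X).Normal := H19.pCore_normal i X
  have hQp : IsPGroup i (Cfsg.pCore i X) := H19.pCore_isPGroup i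
  have hd : i ∣ Nat.card X := by
    rcases hQp.card_eq_or_dvd with h | h
    · exact absurd (Subgroup.mem_bot.mp ((Subgroup.card_eq_one.mp h).le hy)) hy1
    · exact h.trans (Subgroup.card_subgroup_dvd_card _)
  have hnr : H86.NoRankTwo (Cfsg.pCore i X) := by
    intro l hl a b ha hb _
    have hli : l = i := by
      obtain ⟨k, hk⟩ := IsPGroup.iff_orderOf.mp hQp a
      rw [ha] at hk
      have : l ∣ i ^ k := hk ▸ dvd_rfl
      exact (Nat.prime_dvd_prime_iff_eq hl hi).mp (hl.dvd_of_dvd_pow this)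
    subst hli
    obtain ⟨n, hn⟩ := Subgroup.mem_zpowers_iff.mp ((uniq_or_hasE hQp).resolve_right (hno l hl) b b.2 a a.2
      (by rw [Subgroup.orderOf_coe, hb]) (by rw [Subgroup.orderOf_coe, ha]))
    exact Subgroup.mem_zpowers_iff.mpr ⟨n, Subtype.ext hn⟩
  obtain ⟨k, hk⟩ := hx
  have h1 : MulAut.conjNormal (H := Cfsg.pCore i X) x = 1 :=
    H86.aut_eq_one_of_noRankTwo hnr hj.out h5 (lt_of_le_of_ne (hmax i hi hd) hij) hQp _
      (by rw [← map_pow, hk, map_one])
  have h2 : x * y * x⁻¹ = y := by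
    simpa using congrArg Subtype.val (DFunLike.congr_fun h1 (⟨y, hy⟩ : Cfsg.pCore i X))
  exact mul_inv_eq_iff_eq_mul.mp h2

end Cfsg.Agent.H84.FourPrimes
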