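import Mathlib
import Cfsg.Agent.H19.PiHall
import Cfsg.Agent.H81.Coclique
import Cfsg.Agent.H84.FourPrimes.Cores
import Cfsg.Agent.H84.FourPrimes.CentralCase

set_option autoImplicit false

/-! Reduction of the four primes criterion to the chain configuration. -/

namespace Cfsg.Agent.H84.FourPrimes

variable {G : Type*} [Group G] [Finite G]

omit [Finite G] in
theorem IsE.map {X : Type*} [Group X] {i : ℕ} {E : Subgroup X} (h : IsE i E) (f : X →* G)
    (hf : Function.Injective f) : IsE i (E.map f) := by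
  refine ⟨?_, ?_, by rw [Subgroup.card_map_of_injective hf, h.card]⟩
  · rintro _ ⟨a, ha, rfl⟩ _ ⟨b, hb, rfl⟩
    rw [← map_mul, ← map_mul, h.comm a ha b hb]
  · rintro _ ⟨a, ha, rfl⟩
    rw [← map_pow, h.pow_eq a ha, map_one]

omit [Finite G] in
theorem hasE_map {X : Type*} [Group X] {i : ℕ} {Y : Subgroup X} (h : HasE i Y) (f : X →* G)
    (hf : Function.Injective f) : HasE i (Y.map f) := by
  obtain ⟨E, hE, hEY⟩ := h
  exact ⟨E.map f, hE.map f hf, Subgroup.map_mono hEY⟩

omit [Finite G] in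
theorem hasE_subtype {i : ℕ} {X : Subgroup G} (h : HasE i X) : HasE i (⊤ : Subgroup X) := by
  obtain ⟨E, hE, hEX⟩ := h
  refine ⟨E.subgroupOf X, ⟨?_, ?_, ?_⟩, le_top⟩
  · exact fun a ha b hb => Subtype.ext (hE.comm a ha b hb)
  · exact fun a ha => Subtype.ext (by simpa using hE.pow_eq a ha)
  · rw [Nat.card_congr (Subgroup.subgroupOfEquivOfLe hEX).toEquiv, hE.card]

/-- A subgroup of index prime to `i` has rank two with the group. -/
theorem hasE_of_not_dvd_index {X : Type*} [Group X] [Finite X] {i : ℕ} [hi : Fact i.Prime] {H : Subgroup X}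
    (hH : ¬ i ∣ H.index) (h : HasE i (⊤ : Subgroup X)) : HasE i H := by
  obtain ⟨E, hE, -⟩ := h
  obtain ⟨P⟩ : Nonempty (Sylow i H) := inferInstance
  have hfac : (Nat.card H).factorization i = (Nat.card X).factorization i := by
    rw [← H.card_mul_index, Nat.factorization_mul Nat.card_pos.ne' Subgroup.index_ne_zero_of_finite]
    simp [Nat.factorization_eq_zero_of_not_dvd hH]
  let Q : Sylow i X := Sylow.ofCard ((P : Subgroup H).map H.subtype) (by
    rw [Subgroup.card_map_of_injective H.subtype_injective, P.card_eq_multiplicity, hfac])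
  obtain ⟨R, hR⟩ := hE.isPGroup.exists_le_sylow
  obtain ⟨g, hg⟩ := MulAction.exists_smul_eq X R Q
  refine ⟨E.map (MulAut.conj g).toMonoidHom, hE.map _ (MulAut.conj g).injective, ?_⟩
  rintro _ ⟨e, he, rfl⟩
  have : g * e * g⁻¹ ∈ ((g • R : Sylow i X) : Subgroup X) := by
    rw [Sylow.coe_subgroup_smul]
    exact ⟨e, hR he, rfl⟩
  rw [hg] at this
  exact Subgroup.map_subtype_le _ this

/-- A Hall subgroup, inside `X`, containing rank two groups for all its primes. -/
theorem exists_hall_hasE {π : Set ℕ} (X : Subgroup G) [Group.IsSolvable G] :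
    ∃ H : Subgroup G, H ≤ X ∧ (∀ l : ℕ, l.Prime → l ∣ Nat.card H → l ∈ π) ∧
      ∀ i : ℕ, i.Prime → i ∈ π → HasE i X → HasE i H := by
  obtain ⟨H, hH⟩ := H19.piHall_exists (G := X) π
  refine ⟨H.map X.subtype, Subgroup.map_subtype_le H, fun l hl hd => ?_, fun i hi hiπ hX => ?_⟩
  · rw [Subgroup.card_map_of_injective X.subtype_injective] at hd
    exact hH.1 l hl hd
  · haveI := Fact.mk hi
    exact hasE_map (hasE_of_not_dvd_index (hH.2 i hi hiπ) (hasE_subtype hX)) _ X.subtype_injective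

/-- The image in `G` of a core of a subgroup. -/
def coreIn (i : ℕ) (X : Subgroup G) : Subgroup G := (Cfsg.pCore i X).map X.subtype

theorem coreIn_isPGroup (i : ℕ) [Fact i.Prime] (X : Subgroup G) : IsPGroup i (coreIn i X) :=
  (H19.pCore_isPGroup (G := X) i).map _

omit [Finite G] in
theorem coreIn_le (i : ℕ) (X : Subgroup G) : coreIn i X ≤ X := Subgroup.map_subtype_le _

theorem le_normalizer_coreIn (i : ℕ) [Fact i.Prime] (X : Subgroup G) :
    X ≤ Subgroup.normalizer (coreIn i X : Set G) := by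
  haveI : (Cfsg.pCore i X).Normal := H19.pCore_normal i X
  have h := Subgroup.le_normalizer_map (H := Cfsg.pCore i X) X.subtype
  rwa [Subgroup.normalizer_eq_top, ← MonoidHom.range_eq_map, Subgroup.range_subtype] at h

theorem prime_mem_of_hasE {i : ℕ} [hi : Fact i.Prime] {π : Set ℕ} {X : Subgroup G} (h : HasE i X)
    (hπ : ∀ l : ℕ, l.Prime → l ∣ Nat.card X → l ∈ π) : i ∈ π := by
  obtain ⟨E, hE, hEX⟩ := h
  refine hπ i hi.out (dvd_trans ?_ (Subgroup.card_dvd_of_le hEX))
  rw [hE.card]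
  exact dvd_pow_self i two_ne_zero

variable {σ : Set ℕ} [Group.IsSolvable G]

/-- Some core of a nontrivial solvable subgroup is nontrivial. -/
theorem exists_coreIn_ne_bot {X : Subgroup G} (hX : X ≠ ⊥) : ∃ i : ℕ, i.Prime ∧ coreIn i X ≠ ⊥ := by
  by_contra h
  push Not at h
  apply hX
  have hF : Cfsg.fittingSubgroup X = ⊥ := by
    rw [H19.fitting_eq_iSup_pCore, iSup_eq_bot]
    exact fun i => (Subgroup.map_eq_bot_iff_of_injective _ X.subtype_injective).mp (h i i.2)
  have h1 := H19.centralizer_fitting_le (G := X)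
  rw [hF] at h1
  rw [eq_bot_iff]
  intro x hx
  have := h1 (show (⟨x, hx⟩ : X) ∈ Subgroup.centralizer ((⊥ : Subgroup X) : Set X) by
    rw [Subgroup.mem_centralizer_iff]
    intro y hy
    simp [Subgroup.mem_bot.mp hy])
  exact Subgroup.mem_bot.mpr (congrArg Subtype.val (Subgroup.mem_bot.mp this))

/-- A `{2,3}`-group of this kind is impossible. -/
theorem Setting.two_three_false (hS : Setting G σ) {p q : ℕ} [hp : Fact p.Prime] [hq : Fact q.Prime]
    (hpσ : p ∈ σ) (hqσ : q ∈ σ) (h2σ : 2 ∈ σ) (h3σ : 3 ∈ σ) (hpq : p ≠ q) (hp2 : p ≠ 2) (hp3 : p ≠ 3)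
    (hq2 : q ≠ 2) (hq3 : q ≠ 3) {V W U : Subgroup G} (hV : IsPGroup p V) (hW : IsPGroup q W)
    (hVne : V ≠ ⊥) (hWne : W ≠ ⊥) (hWV : W ≤ Subgroup.normalizer (V : Set G))
    (hUV : U ≤ Subgroup.normalizer (V : Set G)) (hUW : U ≤ Subgroup.normalizer (W : Set G))
    (hU : ∀ l : ℕ, l.Prime → l ∣ Nat.card U → l ∈ ({2, 3} : Set ℕ)) (h2 : HasE 2 U) (h3 : HasE 3 U)
    (hno : ∀ i : ℕ, i.Prime → ¬ HasE i (coreIn i U)) : False := by
  haveI : Fact (Nat.Prime 2) := ⟨Nat.prime_two⟩
  haveI : Fact (Nat.Prime 3) := ⟨Nat.prime_three⟩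
  have hO2 : Cfsg.pCore 2 U ≠ ⊥ := by
    intro hbot
    refine hno 3 Nat.prime_three (hasE_map (hasE_pCore (by norm_num) (hasE_subtype h3) ?_) _ U.subtype_injective)
    intro i hi hi3 x _ y hy
    haveI := Fact.mk hi
    by_cases hy1 : y = 1
    · subst hy1; exact Commute.one_right x
    exfalso
    rcases (H19.pCore_isPGroup (G := U) i).card_eq_or_dvd with h | h
    · exact hy1 (Subgroup.mem_bot.mp ((Subgroup.card_eq_one.mp h).le hy))
    · rcases hU i hi (h.trans (Subgroup.card_subgroup_dvd_card _)) with h' | h'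
      · subst h'; exact hy1 (Subgroup.mem_bot.mp (hbot.le hy))
      · exact hi3 h'
  have hC2 : coreIn 2 U ≠ ⊥ := fun e => hO2 ((Subgroup.map_eq_bot_iff_of_injective _ U.subtype_injective).mp e)
  have huniq := (uniq_or_hasE (coreIn_isPGroup 2 U)).resolve_right (hno 2 Nat.prime_two)
  obtain ⟨z, hz, hzo⟩ := exists_orderOf (coreIn_isPGroup 2 U) hC2
  have two : ∀ {g x : G}, orderOf g = 2 → orderOf x = 2 → x ∈ Subgroup.zpowers g → x = g := by
    intro g x hg hx hmem
    classical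
    obtain ⟨n, hn, rfl⟩ := Finset.mem_image.mp (mem_zpowers_iff_mem_range_orderOf.mp hmem)
    rw [hg, Finset.mem_range] at hn
    interval_cases n
    · simp at hx
    · simp
  have hzU := coreIn_le 2 U hz
  have hzc : ∀ g ∈ U, Commute z g := by
    intro g hg
    have h1 := (Subgroup.mem_normalizer_iff.mp (le_normalizer_coreIn 2 U hg) z).mp hz
    have h2 : orderOf (g * z * g⁻¹) = 2 := (MulEquiv.orderOf_eq (MulAut.conj g) z).trans hzo
    exact (mul_inv_eq_iff_eq_mul.mp (two hzo h2 (huniq z hz _ h1 hzo h2))).symm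
  obtain ⟨E, hE, hEU⟩ := h3
  have hzV := hS.rank_fpf h2σ h3σ hpσ (by norm_num) hp3.symm hp2.symm hE hzo (fun e he => hzc e (hEU he))
    (hEU.trans hUV) hV
  have hzW := hS.rank_fpf h2σ h3σ hqσ (by norm_num) hq3.symm hq2.symm hE hzo (fun e he => hzc e (hEU he))
    (hEU.trans hUW) hW
  have hVW : ∀ v ∈ V, ∀ w ∈ W, Commute v w := fun v hv w hw =>
    (commute_of_fpf (s := 2) hpq.symm hW hV hWV hzo (hUW hzU) (hUV hzU) hzW hzV w hw v hv).symm
  obtain ⟨E₂, hE₂, hE₂U⟩ := h2
  obtain ⟨y, hy, hyz⟩ : ∃ y ∈ E₂, y ∉ Subgroup.zpowers z := by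
    by_contra hcon
    push Not at hcon
    have := Subgroup.card_le_of_le (show E₂ ≤ Subgroup.zpowers z from hcon)
    rw [hE₂.card, Nat.card_zpowers, hzo] at this
    norm_num at this
  have hyo := hE₂.orderOf_eq hy (fun e => hyz (e ▸ Subgroup.one_mem _))
  have hyc := hS.involution_commute hpσ hqσ h2σ hpq hp2 hq2 hV hW hVne hWne hUV hUW hVW
    (fun l hl hld => by
      rcases hU l hl hld with h | h
      · subst h; exact ⟨h2σ, hp2.symm, hq2.symm⟩
      · rcases h with rfl; exact ⟨h3σ, hp3.symm, hq3.symm⟩)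
    hzU hzo hzc hzV hzW (hE₂U hy) hyo
  have hyU := hE₂U hy
  have hn : (Subgroup.zpowers (⟨y, hyU⟩ : U)).Normal := H24.normal_of_le_center
    (Subgroup.zpowers_le.mpr (Subgroup.mem_center_iff.mpr fun g => Subtype.ext (hyc g g.2).symm.eq))
  have hle := H19.le_pCore hn (isPGroup_zpowers (i := 2) (by rw [Subgroup.orderOf_mk, hyo]))
  exact hyz (huniq z hz y ⟨⟨y, hyU⟩, hle (Subgroup.mem_zpowers _), rfl⟩ hzo hyo)

theorem five_le {a b c : ℕ} (ha : a.Prime) (hb : b.Prime) (hc : c.Prime) (hab : a ≠ b) (hbc : b ≠ c) (hac : a ≠ c) :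
    5 ≤ max a (max b c) := by
  by_contra h
  push Not at h
  have h1 : ∀ n : ℕ, n.Prime → n < 5 → n = 2 ∨ n = 3 := by
    intro n hn hn5
    interval_cases n <;> first | omega | exact absurd hn (by norm_num)
  rcases h1 a ha (by omega) with rfl | rfl <;> rcases h1 b hb (by omega) with rfl | rfl <;>
    rcases h1 c hc (by omega) with rfl | rfl <;> omega

theorem two_three {a b : ℕ} (ha : a.Prime) (hb : b.Prime) (hab : a ≠ b) (h : max a b < 5) :
    ({a, b} : Set ℕ) = {2, 3} := by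
  have h1 : ∀ n : ℕ, n.Prime → n < 5 → n = 2 ∨ n = 3 := by
    intro n hn hn5
    interval_cases n <;> first | omega | exact absurd hn (by norm_num)
  rcases h1 a ha (by omega) with rfl | rfl <;> rcases h1 b hb (by omega) with rfl | rfl
  · omega
  · rfl
  · exact Set.pair_comm 3 2
  · omega

/-- The impossible configuration inside a solvable group. -/
theorem Setting.false_of_four (hS : Setting G σ) {τ : Finset ℕ} (hτσ : ∀ i ∈ τ, i ∈ σ) (hτ : τ.card = 4)
    (hE : ∀ i ∈ τ, HasE i (⊤ : Subgroup G)) : False := by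
  obtain ⟨K, -, hKπ, hKE⟩ := exists_hall_hasE (π := (↑τ : Set ℕ)) (⊤ : Subgroup G)
  have hprime : ∀ i ∈ τ, i.Prime := fun i hi => hS.prime i (hτσ i hi)
  have hK : ∀ i ∈ τ, HasE i K := fun i hi => hKE i (hprime i hi) hi (hE i hi)
  have hKne : K ≠ ⊥ := by
    obtain ⟨i, hi⟩ := Finset.card_pos.mp (by omega : 0 < τ.card)
    haveI := Fact.mk (hprime i hi)
    exact (hK i hi).ne_bot
  obtain ⟨p, hp, hV⟩ := exists_coreIn_ne_bot hKne
  haveI := Fact.mk hp
  set V := coreIn p K with hVdef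
  have hpτ : p ∈ τ := by
    refine hKπ p hp ?_
    rcases (coreIn_isPGroup p K).card_eq_or_dvd with h | h
    · exact absurd (Subgroup.card_eq_one.mp h) hV
    · exact h.trans (Subgroup.card_dvd_of_le (coreIn_le p K))
  have hcard : (τ.erase p).card = 3 := by rw [Finset.card_erase_of_mem hpτ, hτ]
  obtain ⟨a, b, c, hab, hac, hbc, habc⟩ := Finset.card_eq_three.mp hcard
  have hmem : ∀ i, i = a ∨ i = b ∨ i = c → i ∈ τ ∧ i ≠ p := fun i hi => by
    have : i ∈ τ.erase p := by rw [habc]; simp [hi]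
    exact ⟨(Finset.mem_erase.mp this).2, (Finset.mem_erase.mp this).1⟩
  obtain ⟨T, hTK, hTπ, hTE⟩ := exists_hall_hasE (π := ({a, b, c} : Set ℕ)) K
  have hTE' : ∀ i ∈ ({a, b, c} : Set ℕ), HasE i T := fun i hi =>
    hTE i (hprime i (hmem i hi).1) hi (hK i (hmem i hi).1)
  obtain ⟨j, hjm, hj5, hjmax⟩ : ∃ j ∈ ({a, b, c} : Set ℕ), 5 ≤ j ∧ ∀ i ∈ ({a, b, c} : Set ℕ), i ≤ j := by
    refine ⟨max a (max b c), ?_, five_le (hprime a (hmem a (by simp)).1) (hprime b (hmem b (by simp)).1)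
      (hprime c (hmem c (by simp)).1) hab hbc hac, ?_⟩
    · rcases max_choice a (max b c) with h | h <;> rw [h]
      · simp
      · rcases max_choice b c with h' | h' <;> rw [h'] <;> simp
    · intro i hi
      rcases hi with rfl | rfl | rfl <;> omega
  haveI := Fact.mk (hprime j (hmem j hjm).1)
  obtain ⟨q, hq, hqE⟩ := exists_core_hasE hj5 (fun i hi hd => hjmax i (hTπ i hi hd)) (hasE_subtype (hTE' j hjm))
  haveI := Fact.mk hq
  have hWE : HasE q (coreIn q T) := hasE_map hqE _ T.subtype_injective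
  set W := coreIn q T with hWdef
  have hqm : q ∈ ({a, b, c} : Set ℕ) :=
    prime_mem_of_hasE hWE fun l hl hd => hTπ l hl (hd.trans (Subgroup.card_dvd_of_le (coreIn_le q T)))
  -- the other two primes
  obtain ⟨x, y, hxy, hxq, hyq, hxm, hym⟩ : ∃ x y : ℕ, x ≠ y ∧ x ≠ q ∧ y ≠ q ∧ x ∈ ({a, b, c} : Set ℕ) ∧
      y ∈ ({a, b, c} : Set ℕ) := by
    rcases hqm with rfl | rfl | rfl
    · exact ⟨b, c, hbc, hab.symm, hac.symm, by simp, by simp⟩
    · exact ⟨a, c, hac, hab, hbc.symm, by simp, by simp⟩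
    · exact ⟨a, b, hab, hac, hbc, by simp, by simp⟩
  obtain ⟨U, hUT, hUπ, hUE⟩ := exists_hall_hasE (π := ({x, y} : Set ℕ)) T
  have hxp := hprime x (hmem x hxm).1
  have hyp := hprime y (hmem y hym).1
  haveI := Fact.mk hxp
  haveI := Fact.mk hyp
  have hxE : HasE x U := hUE x hxp (by simp) (hTE' x hxm)
  have hyE : HasE y U := hUE y hyp (by simp) (hTE' y hym)
  have hKV : K ≤ Subgroup.normalizer (V : Set G) := le_normalizer_coreIn p K
  have hTW : T ≤ Subgroup.normalizer (W : Set G) := le_normalizer_coreIn q T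
  have hqτ := hmem q hqm
  have build : ∀ r s : ℕ, r ≠ s → (r = x ∨ r = y) → (s = x ∨ s = y) → HasE r (coreIn r U) → False := by
    intro r s hrs hr hs hrE
    have hr' : r ∈ τ ∧ r ≠ p ∧ r ≠ q := by
      rcases hr with rfl | rfl
      exacts [⟨(hmem _ hxm).1, (hmem _ hxm).2, hxq⟩, ⟨(hmem _ hym).1, (hmem _ hym).2, hyq⟩]
    have hs' : s ∈ τ ∧ s ≠ p ∧ s ≠ q ∧ HasE s U := by
      rcases hs with rfl | rfl
      exacts [⟨(hmem _ hxm).1, (hmem _ hxm).2, hxq, hxE⟩, ⟨(hmem _ hym).1, (hmem _ hym).2, hyq, hyE⟩]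
    haveI := Fact.mk (hprime r hr'.1)
    haveI := Fact.mk (hprime s hs'.1)
    obtain ⟨F, hF, hFU⟩ := hs'.2.2.2
    exact Chain.false (V := V) (W := W) (D := coreIn r U) (F := F)
      { setting := hS
        hp := hτσ p hpτ
        hq := hτσ q hqτ.1
        hr := hτσ r hr'.1
        hs := hτσ s hs'.1
        pq := hqτ.2.symm
        pr := hr'.2.1.symm
        ps := hs'.2.1.symm
        qr := hr'.2.2.symm
        qs := hs'.2.2.1.symm
        rs := hrs
        pgV := coreIn_isPGroup p K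
        pgW := coreIn_isPGroup q T
        pgD := coreIn_isPGroup r U
        elemF := hF
        neV := hV
        rankW := hWE
        rankD := hrE
        WV := ((coreIn_le q T).trans hTK).trans hKV
        DV := (((coreIn_le r U).trans hUT).trans hTK).trans hKV
        FV := ((hFU.trans hUT).trans hTK).trans hKV
        DW := ((coreIn_le r U).trans hUT).trans hTW
        FW := (hFU.trans hUT).trans hTW
        FD := hFU.trans (le_normalizer_coreIn r U) }
  have huse : ∀ r : ℕ, r.Prime → HasE r (coreIn r U) → False := by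
    intro r hr hrE
    haveI := Fact.mk hr
    rcases prime_mem_of_hasE hrE (fun l hl hd => hUπ l hl (hd.trans (Subgroup.card_dvd_of_le (coreIn_le r U)))) with
      h | h
    · exact build r y (h ▸ hxy) (Or.inl h) (Or.inr rfl) hrE
    · exact build r x (h ▸ hxy.symm) (Or.inr h) (Or.inl rfl) hrE
  by_cases h5 : 5 ≤ max x y
  · obtain ⟨m, hm, hm5, hmmax⟩ : ∃ m : ℕ, (m = x ∨ m = y) ∧ 5 ≤ m ∧ ∀ i ∈ ({x, y} : Set ℕ), i ≤ m := by
      refine ⟨max x y, max_choice x y, h5, ?_⟩
      intro i hi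
      rcases hi with rfl | rfl <;> omega
    have hmE : HasE m U := by rcases hm with rfl | rfl <;> assumption
    haveI : Fact m.Prime := ⟨by rcases hm with rfl | rfl <;> assumption⟩
    obtain ⟨r, hr, hrE⟩ := exists_core_hasE hm5 (fun i hi hd => hmmax i (hUπ i hi hd)) (hasE_subtype hmE)
    exact huse r hr (hasE_map hrE _ U.subtype_injective)
  · have h23 := two_three hxp hyp hxy (by omega)
    rw [h23] at hUπ
    have key : ∀ l : ℕ, l ∈ ({2, 3} : Set ℕ) → l ∈ σ ∧ l ≠ p ∧ l ≠ q ∧ HasE l U := by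
      intro l hl
      rw [← h23] at hl
      rcases hl with rfl | rfl
      exacts [⟨hτσ _ (hmem _ hxm).1, (hmem _ hxm).2, hxq, hxE⟩, ⟨hτσ _ (hmem _ hym).1, (hmem _ hym).2, hyq, hyE⟩]
    obtain ⟨h2σ, h2p, h2q, h2E⟩ := key 2 (by simp)
    obtain ⟨h3σ, h3p, h3q, h3E⟩ := key 3 (by simp)
    exact hS.two_three_false (hτσ p hpτ) (hτσ q hqτ.1) h2σ h3σ hqτ.2.symm h2p.symm h3p.symm h2q.symm h3q.symm
      (coreIn_isPGroup p K) (coreIn_isPGroup q T) hV hWE.ne_bot (((coreIn_le q T).trans hTK).trans hKV)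
      ((hUT.trans hTK).trans hKV) (hUT.trans hTW) hUπ h2E h3E fun i hi h => huse i hi h

end Cfsg.Agent.H84.FourPrimes
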